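import Cfsg.Agent.H818.Gen.Exc
import Cfsg.Agent.H720.TwFr
import Cfsg.Prelude.Def_CaseTheorems

/-!
# S2187, row TRI (`p = 3`, graph automorphisms of `D₄`): interface (helper350)

`Y4 r` the adjoint group of type `D₄` over `KK r`, `gr4` the triality.

* `Roots t`, `MMt t` : the roots trivial on `t ∈ TT`, the group generated by their root groups;
* `A2std`, `A1std` : `{± α₀, ± α₁, ± (α₀ + α₁)}`, `{± α₀, ± α₂, ± α₃}` (`α₁` is the central node);
* `CompY τ S` : the group generated by the `τ`-fixed `r`-elements of `⟨X_a : a ∈ S⟩` is a product of at most three commuting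
  quasi-simple groups with `Gen 3`;
* `CompK ι e` : the same for the `r`-elements of `K₀` commuting with `e`.
-/

set_option autoImplicit false

namespace Cfsg.Agent.H350.Tri

open CoxeterSystem Cfsg Cfsg.Lie Cfsg.Agent.ChevalleyStructure Cfsg.Agent.ChevalleyStructure.Elts
open Cfsg.Agent.ChevalleyStructure.CoxeterGeom Cfsg.Agent.ChevalleyStructure.CoxeterGeomTypes
open Cfsg.Agent.ChevalleyStructure.GraphSymm (symmD4a)
open Cfsg.Agent.Tits.Roots Cfsg.Agent.Tits.Core Cfsg.Agent.Nodes Cfsg.Agent.Nodes.Reps Cfsg.Agent.Nodes.BNOf Cfsg.Agent.Nodes.Bruhat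
open Cfsg.Agent.Nodes.RGDChev Cfsg.Agent.BpExc.TorCent Cfsg.Agent.KFacts.RgdChevCoord
open Cfsg.Agent.BpExc.FamTw.Gr
open Cfsg.Agent.H469.Exc (KK)
open Cfsg.Agent.H818.Gen Cfsg.Agent.H316.U6

universe u v

/-- the adjoint group of type `D₄` over `KK r` -/
abbrev Y4 (r : ℕ) [Fact r.Prime] : Type := ↥(chevD4.group (KK r))

/-- the triality of `Y4 r` -/
noncomputable def gr4 (r : ℕ) [Fact r.Prime] : MulAut (Y4 r) := gr Cfsg.Agent.Nodes.RGDTwD4.hp.inList symmD4a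

variable {r : ℕ} [Fact r.Prime]

/-- the roots trivial on `t` -/
def Roots (t : Y4 r) : Set (Fin 4 → ℤ) :=
  Sx coxeterD4.toCoxeterSystem Cfsg.Agent.Nodes.RGDTwD4.hp.isCartan (ch Cfsg.Agent.Nodes.RGDTwD4.hp) t

/-- the group generated by the root groups of the roots trivial on `t` -/
noncomputable def MMt (t : Y4 r) : Subgroup (Y4 r) :=
  RGD.Sup (XX chevD4 4 (KK r)) (Roots t)

/-- a standard subsystem of type `A₂` -/
def A2std : Set (Fin 4 → ℤ) := {a | a = sr 0 ∨ a = sr 1 ∨ a = sr 0 + sr 1 ∨ a = -sr 0 ∨ a = -sr 1 ∨ a = -(sr 0 + sr 1)}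

/-- a standard subsystem of type `A₁³` -/
def A1std : Set (Fin 4 → ℤ) := {a | a = sr 0 ∨ a = sr 2 ∨ a = sr 3 ∨ a = -sr 0 ∨ a = -sr 2 ∨ a = -sr 3}

/-- the components of the fixed points of `τ` in `⟨X_a : a ∈ S⟩` -/
def CompY (τ : MulAut (Y4 r)) (S : Set (Fin 4 → ℤ)) : Prop :=
  ∃ (n : ℕ) (_ : n ≤ 3) (K : Fin n → Subgroup (Y4 r)),
    (∀ i, IsQuasisimple ↥(K i)) ∧ (∀ i, Gen 3 ↥(K i)) ∧
    (∀ i j, i ≠ j → ∀ a ∈ K i, ∀ b ∈ K j, a * b = b * a) ∧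
    (⨆ i, K i) = Subgroup.closure {u : Y4 r | u ∈ RGD.Sup (XX chevD4 4 (KK r)) S ∧ τ u = u ∧ ∃ j, u ^ r ^ j = 1}

/-- the components of the group generated by the `r`-elements of `K₀` commuting with `e` -/
def CompK {K₀ : Type v} [Group K₀] (ι : K₀ →* Y4 r) (e : Y4 r) : Prop :=
  ∃ (n : ℕ) (_ : n ≤ 3) (K : Fin n → Subgroup K₀),
    (∀ i, IsQuasisimple ↥(K i)) ∧ (∀ i, Gen 3 ↥(K i)) ∧
    (∀ i j, i ≠ j → ∀ a ∈ K i, ∀ b ∈ K j, a * b = b * a) ∧
    (⨆ i, K i) = Subgroup.closure {u : K₀ | e * ι u = ι u * e ∧ ∃ j, u ^ r ^ j = 1}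

end Cfsg.Agent.H350.Tri
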