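import Cfsg.Agent.H818.Gen.Defs

/-!
# S2187, row TRI: abstract group theory (helper350)

* `enlarge` : enlarging an elementary abelian subgroup `E` of `X` so that `|E' ⊓ N| ≥ p ^ 2`;
* `Lift` : automorphisms of `Y` inducing automorphisms of `K₀`.
-/

set_option autoImplicit false
set_option linter.unusedSectionVars false

namespace Cfsg.Agent.H350.Tri

open Cfsg Subgroup Cfsg.Agent.H818.Gen

section grp

variable {X : Type*} [Group X] {p : ℕ}

theorem elab_comm {E : Subgroup X} (hE : IsElementaryAbelian p E) {a b : X} (ha : a ∈ E) (hb : b ∈ E) : a * b = b * a :=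
  congrArg (fun z : ↥E => (z : X)) (hE.1.1.1 ⟨a, ha⟩ ⟨b, hb⟩)

theorem elab_mk {E : Subgroup X} (h1 : ∀ a ∈ E, ∀ b ∈ E, a * b = b * a) (h2 : ∀ a ∈ E, a ^ p = 1) :
    IsElementaryAbelian p E :=
  ⟨⟨⟨fun a b => Subtype.ext (h1 a a.2 b b.2)⟩⟩, h2⟩

/-- two commuting elementary abelian subgroups -/
theorem elab_sup {A B : Subgroup X} (hA : IsElementaryAbelian p A) (hB : IsElementaryAbelian p B)
    (h : ∀ a ∈ A, ∀ b ∈ B, a * b = b * a) : IsElementaryAbelian p (A ⊔ B) ∧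
      ∀ x ∈ A ⊔ B, ∃ a ∈ A, ∃ b ∈ B, a * b = x := by
  have hs : ∀ x ∈ A ⊔ B, ∃ a ∈ A, ∃ b ∈ B, a * b = x := by
    have hN : ∃ S : Subgroup X, ∀ x, x ∈ S ↔ ∃ a ∈ A, ∃ b ∈ B, a * b = x := by
      refine ⟨⟨⟨⟨{x | ∃ a ∈ A, ∃ b ∈ B, a * b = x}, ?_⟩, ?_⟩, ?_⟩, fun x => Iff.rfl⟩
      · rintro _ _ ⟨a, ha, b, hb, rfl⟩ ⟨a', ha', b', hb', rfl⟩
        refine ⟨a * a', mul_mem ha ha', b * b', mul_mem hb hb', ?_⟩
        have := h a' ha' b hb
        calc a * a' * (b * b') = a * (a' * b) * b' := by group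
          _ = a * (b * a') * b' := by rw [this]
          _ = _ := by group
      · exact ⟨1, one_mem _, 1, one_mem _, mul_one 1⟩
      · rintro _ ⟨a, ha, b, hb, rfl⟩
        refine ⟨a⁻¹, inv_mem ha, b⁻¹, inv_mem hb, ?_⟩
        rw [← mul_inv_rev, h a ha b hb]
    obtain ⟨S, hS⟩ := hN
    have h1 : A ⊔ B ≤ S := sup_le (fun a ha => (hS a).2 ⟨a, ha, 1, one_mem _, mul_one a⟩)
      (fun b hb => (hS b).2 ⟨1, one_mem _, b, hb, one_mul b⟩)
    exact fun x hx => (hS x).1 (h1 hx)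
  refine ⟨elab_mk ?_ ?_, hs⟩
  · intro x hx y hy
    obtain ⟨a, ha, b, hb, rfl⟩ := hs x hx
    obtain ⟨a', ha', b', hb', rfl⟩ := hs y hy
    have h1 := h a' ha' b hb
    have h2 := h a ha b' hb'
    have h3 := elab_comm hA ha ha'
    have h4 := elab_comm hB hb hb'
    calc a * b * (a' * b') = a * (b * a') * b' := by group
      _ = a * (a' * b) * b' := by rw [h1]
      _ = (a * a') * (b * b') := by group
      _ = (a' * a) * (b' * b) := by rw [h3, h4]
      _ = a' * (a * b') * b := by group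
      _ = a' * (b' * a) * b := by rw [h2]
      _ = _ := by group
  · intro x hx
    obtain ⟨a, ha, b, hb, rfl⟩ := hs x hx
    have h1 : Commute a b := h a ha b hb
    rw [h1.mul_pow, hA.2 a ha, hB.2 b hb, one_mul]

theorem elab_zpowers {e : X} (he : e ^ p = 1) : IsElementaryAbelian p (zpowers e) := by
  refine elab_mk ?_ ?_
  · rintro _ ⟨i, rfl⟩ _ ⟨j, rfl⟩
    exact (Commute.refl e).zpow_zpow i j
  · rintro _ ⟨i, rfl⟩
    show (e ^ i) ^ p = 1
    rw [← zpow_natCast, zpow_comm, zpow_natCast, he, one_zpow]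

theorem elab_map {Z : Type*} [Group Z] (f : X →* Z) {E : Subgroup X} (hE : IsElementaryAbelian p E) :
    IsElementaryAbelian p (E.map f) := by
  refine elab_mk ?_ ?_
  · rintro _ ⟨a, ha, rfl⟩ _ ⟨b, hb, rfl⟩
    rw [← map_mul, elab_comm hE ha hb, map_mul]
  · rintro _ ⟨a, ha, rfl⟩
    rw [← map_pow, hE.2 a ha, map_one]

variable [Finite X] [hp : Fact p.Prime]

/-- a complement -/
theorem exists_compl {E : Subgroup X} (hE : IsElementaryAbelian p E) (E₀ : Subgroup X) :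
    ∃ R ≤ E, R ⊓ E₀ = ⊥ ∧ E ≤ R ⊔ E₀ := by
  obtain ⟨R, ⟨h1, h2⟩, h3⟩ := Set.Finite.exists_maximalFor (fun R : Subgroup X => Nat.card R)
    {R : Subgroup X | R ≤ E ∧ R ⊓ E₀ = ⊥} (Set.toFinite _) ⟨⊥, bot_le, bot_inf_eq _⟩
  refine ⟨R, h1, h2, fun x hx => ?_⟩
  by_contra hcon
  have hxR : x ∉ R := fun h => hcon (le_sup_left (b := E₀) h)
  have hR : IsElementaryAbelian p R := elab_mono h1 hE
  obtain ⟨-, hs⟩ := elab_sup hR (elab_zpowers (hE.2 x hx)) (fun a ha b hb => by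
    obtain ⟨i, rfl⟩ := hb
    exact (Commute.zpow_right (elab_comm hE (h1 ha) hx : Commute a x) i))
  have h4 : (R ⊔ zpowers x) ⊓ E₀ = ⊥ := by
    rw [eq_bot_iff]
    rintro y ⟨hy, hy0⟩
    obtain ⟨a, ha, b, ⟨i, rfl⟩, rfl⟩ := hs y hy
    have hb : (fun i => x ^ i) i = x ^ i := rfl
    by_cases hi : (p : ℤ) ∣ i
    · have h5 : x ^ i = 1 := by
        obtain ⟨j, rfl⟩ := hi
        rw [zpow_mul, zpow_natCast, hE.2 x hx, one_zpow]
      rw [hb, h5, mul_one] at hy0 ⊢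
      rw [← h2]
      exact ⟨ha, hy0⟩
    · exfalso
      apply hcon
      have hcop : IsCoprime i (p : ℤ) := by
        rw [Int.isCoprime_iff_gcd_eq_one, Int.gcd_comm, Int.gcd_eq_natAbs, Int.natAbs_natCast]
        refine (Nat.Prime.coprime_iff_not_dvd hp.out).2 ?_
        rwa [← Int.natCast_dvd]
      obtain ⟨u, v, huv⟩ := hcop
      have h6 : x ^ i = a⁻¹ * (a * x ^ i) := by group
      have h7 : x ^ i ∈ R ⊔ E₀ := by
        rw [h6]
        exact mul_mem (le_sup_left (b := E₀) (inv_mem ha)) (le_sup_right (a := R) hy0)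
      have h8 : x = (x ^ i) ^ u := by
        rw [← zpow_mul]
        have h9 : i * u = 1 - (p : ℤ) * v := by linarith
        rw [h9, zpow_sub, zpow_one, zpow_mul, zpow_natCast, hE.2 x hx, one_zpow, inv_one, mul_one]
      rw [h8]
      exact zpow_mem h7 u
  have h5 := h3 (j := R ⊔ zpowers x) ⟨sup_le h1 (zpowers_le.2 hx), h4⟩ (card_le_of_le le_sup_left)
  have h6 : R = R ⊔ zpowers x := eq_of_le_of_card_ge le_sup_left h5
  exact hxR (h6 ▸ (le_sup_right (a := R) (mem_zpowers x)))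

/-- an element of order `p` in a group with a noncyclic elementary abelian subgroup -/
theorem exists_elab {C A : Subgroup X} (hA : IsElementaryAbelian p A) (hAC : A ≤ C) (hc : p ^ 2 ≤ Nat.card A) {e : X}
    (he : e ∈ C) (hep : e ^ p = 1) :
    ∃ B ≤ C, IsElementaryAbelian p B ∧ p ^ 2 ≤ Nat.card B ∧ e ∈ B := by
  -- Sylow subgroups of `C`
  obtain ⟨P, hP⟩ := IsPGroup.exists_le_sylow (G := ↥C) (P := (zpowers e).subgroupOf C) (p := p) (by
    intro x
    refine ⟨1, ?_⟩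
    rw [pow_one]
    refine Subtype.ext (Subtype.ext ?_)
    exact (elab_zpowers hep).2 _ x.2)
  obtain ⟨Q, hQ⟩ := IsPGroup.exists_le_sylow (G := ↥C) (P := A.subgroupOf C) (p := p) (by
    intro x
    refine ⟨1, ?_⟩
    rw [pow_one]
    refine Subtype.ext (Subtype.ext ?_)
    exact hA.2 _ x.2)
  obtain ⟨g, hg⟩ := MulAction.exists_smul_eq (↥C) Q P
  -- the conjugate of `A`
  obtain ⟨A', hA'⟩ : ∃ A' : Subgroup X, A' = A.map (MulAut.conj (g : X)).toMonoidHom := ⟨_, rfl⟩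
  have h1 : IsElementaryAbelian p A' := hA' ▸ elab_map _ hA
  have h2 : Nat.card A' = Nat.card A := by
    rw [hA']
    exact Nat.card_congr (A.equivMapOfInjective _ (MulAut.conj (g : X)).injective).toEquiv.symm
  have hPX : ∀ a ∈ A', ∃ h : a ∈ C, (⟨a, h⟩ : ↥C) ∈ (P : Subgroup ↥C) := by
    rw [hA']
    rintro _ ⟨a, ha, rfl⟩
    have h3 : (⟨a, hAC ha⟩ : ↥C) ∈ (Q : Subgroup ↥C) := hQ (mem_subgroupOf.2 ha)
    have h4 : g * (⟨a, hAC ha⟩ : ↥C) * g⁻¹ ∈ (P : Subgroup ↥C) := by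
      rw [← hg]
      exact Subgroup.smul_mem_pointwise_smul (α := MulAut ↥C) _ (MulAut.conj g) _ h3
    exact ⟨(g * (⟨a, hAC ha⟩ : ↥C) * g⁻¹).2, h4⟩
  have hA'C : A' ≤ C := fun a ha => (hPX a ha).1
  -- an element of the center
  have hPbot : Nontrivial ↥(P : Subgroup ↥C) := by
    by_contra hcon
    rw [not_nontrivial_iff_subsingleton] at hcon
    have h5 : Nat.card A' ≤ 1 := by
      rw [Finite.card_le_one_iff_subsingleton]
      refine ⟨fun a b => ?_⟩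
      obtain ⟨h6, h7⟩ := hPX a a.2
      obtain ⟨h8, h9⟩ := hPX b b.2
      have h10 := Subsingleton.elim (⟨_, h7⟩ : ↥(P : Subgroup ↥C)) ⟨_, h9⟩
      exact Subtype.ext (congrArg (fun z : ↥(P : Subgroup ↥C) => ((z : ↥C) : X)) h10)
    rw [h2] at h5
    have := hp.out.one_lt
    have : 1 < p ^ 2 := by nlinarith
    omega
  have hPp : IsPGroup p ↥(P : Subgroup ↥C) := P.isPGroup'
  have := hPp.center_nontrivial
  obtain ⟨⟨⟨z, hzC⟩, hzP⟩, hz, hz1, hzp⟩ : ∃ z : ↥(P : Subgroup ↥C), z ∈ center ↥(P : Subgroup ↥C) ∧ z ≠ 1 ∧ z ^ p = 1 := by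
    obtain ⟨n, hn⟩ := (hPp.to_subgroup (center ↥(P : Subgroup ↥C))).exists_card_eq
    have hn0 : n ≠ 0 := by
      rintro rfl
      rw [pow_zero] at hn
      have := Finite.one_lt_card (α := ↥(center ↥(P : Subgroup ↥C)))
      omega
    obtain ⟨z, hz⟩ := exists_prime_orderOf_dvd_card' (G := ↥(center ↥(P : Subgroup ↥C))) p
      (by rw [hn]; exact dvd_pow_self p hn0)
    refine ⟨z.1, z.2, ?_, ?_⟩
    · intro h
      have : z = 1 := Subtype.ext h
      rw [this, orderOf_one] at hz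
      exact hp.out.one_lt.ne hz
    · have h5 : z ^ p = 1 := orderOf_dvd_iff_pow_eq_one.1 (dvd_of_eq hz)
      exact congrArg Subtype.val h5
  have hzc : ∀ a (h : a ∈ C), (⟨a, h⟩ : ↥C) ∈ (P : Subgroup ↥C) → z * a = a * z := by
    intro a h ha
    have h5 := mem_center_iff.1 hz ⟨⟨a, h⟩, ha⟩
    have h6 := congrArg (fun z : ↥(P : Subgroup ↥C) => ((z : ↥C) : X)) h5
    exact h6.symm
  have hz1' : z ≠ 1 := fun h => hz1 (Subtype.ext (Subtype.ext h))
  have hzp' : z ^ p = 1 := congrArg (fun z : ↥(P : Subgroup ↥C) => ((z : ↥C) : X)) hzp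
  by_cases hez : e ∈ zpowers z
  · -- `⟨A', z⟩`
    obtain ⟨h5, -⟩ := elab_sup h1 (elab_zpowers hzp') (fun a ha b hb => by
      obtain ⟨i, rfl⟩ := hb
      obtain ⟨h6, h7⟩ := hPX a ha
      exact (Commute.zpow_right (hzc a h6 h7).symm i))
    refine ⟨A' ⊔ zpowers z, sup_le hA'C (zpowers_le.2 hzC), h5, ?_, le_sup_right (a := A') hez⟩
    rw [← h2] at hc
    exact hc.trans (card_le_of_le le_sup_left)
  · have heP : (⟨e, he⟩ : ↥C) ∈ (P : Subgroup ↥C) := hP (mem_subgroupOf.2 (mem_zpowers e))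
    have hcomm := hzc e he heP
    obtain ⟨h5, -⟩ := elab_sup (elab_zpowers hep) (elab_zpowers hzp') (fun a ha b hb => by
      obtain ⟨i, rfl⟩ := ha
      obtain ⟨j, rfl⟩ := hb
      exact (Commute.zpow_zpow (hcomm.symm : Commute e z) i j))
    refine ⟨zpowers e ⊔ zpowers z, sup_le (zpowers_le.2 he) (zpowers_le.2 hzC), h5, ?_, le_sup_left (b := zpowers z) (mem_zpowers e)⟩
    obtain ⟨n, hn⟩ := (elab_isPGroup h5).exists_card_eq
    rw [hn]
    refine Nat.pow_le_pow_right hp.out.pos ?_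
    by_contra hlt
    have hn1 : n ≤ 1 := by omega
    have h6 : Nat.card ↥(zpowers e ⊔ zpowers z) ≤ p := by
      rw [hn]
      exact (Nat.pow_le_pow_right hp.out.pos hn1).trans_eq (pow_one p)
    have h7 : Nat.card ↥(zpowers z) = p := by rw [Nat.card_zpowers, orderOf_eq_prime hzp' hz1']
    have h8 : zpowers z = zpowers e ⊔ zpowers z := eq_of_le_of_card_ge le_sup_right (by rw [h7]; exact h6)
    exact hez (h8 ▸ (le_sup_left (b := zpowers z) (mem_zpowers e)))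

/-- **Enlarging.** -/
theorem enlarge {N E : Subgroup X} (hE : IsElementaryAbelian p E)
    (hA : ∀ R ≤ E, R ⊓ N = ⊥ → E ≤ R ⊔ (E ⊓ N) →
      ∃ A ≤ N, IsElementaryAbelian p A ∧ p ^ 2 ≤ Nat.card A ∧ ∀ ρ ∈ R, ∀ a ∈ A, ρ * a = a * ρ) :
    ∃ E', E ≤ E' ∧ IsElementaryAbelian p E' ∧ p ^ 2 ≤ Nat.card ↥(E' ⊓ N) := by
  by_cases hbig : p ^ 2 ≤ Nat.card ↥(E ⊓ N)
  · exact ⟨E, le_rfl, hE, hbig⟩
  obtain ⟨R, hR, hR0, hRE⟩ := exists_compl hE (E ⊓ N)
  have hRN : R ⊓ N = ⊥ := by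
    rw [← hR0]
    refine le_antisymm (fun x hx => ⟨hx.1, hR hx.1, hx.2⟩) (fun x hx => ⟨hx.1, hx.2.2⟩)
  obtain ⟨A, hAN, hAe, hAc, hcomm⟩ := hA R hR hRN hRE
  -- `E ⊓ N` is cyclic
  obtain ⟨e, he, hez⟩ : ∃ e ∈ E ⊓ N, E ⊓ N ≤ zpowers e := by
    have h0 : IsElementaryAbelian p (E ⊓ N) := elab_mono inf_le_left hE
    by_cases hb : E ⊓ N = ⊥
    · exact ⟨1, one_mem _, by rw [hb]; exact bot_le⟩
    obtain ⟨e, he1⟩ := (Subgroup.ne_bot_iff_exists_ne_one.1 hb)
    refine ⟨e, e.2, ?_⟩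
    have h1 : (e : X) ≠ 1 := fun h => he1 (Subtype.ext h)
    have h2 : Nat.card ↥(zpowers (e : X)) = p := by rw [Nat.card_zpowers, orderOf_eq_prime (h0.2 _ e.2) h1]
    obtain ⟨n, hn⟩ := (elab_isPGroup h0).exists_card_eq
    have hn1 : n ≤ 1 := by
      by_contra hcon
      apply hbig
      rw [hn]
      exact Nat.pow_le_pow_right hp.out.pos (by omega)
    have h3 : Nat.card ↥(E ⊓ N) ≤ p := by
      rw [hn]; exact (Nat.pow_le_pow_right hp.out.pos hn1).trans_eq (pow_one p)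
    exact (eq_of_le_of_card_ge (zpowers_le.2 e.2) (by rw [h2]; exact h3)).ge
  -- the centralizer of `R` in `N`
  obtain ⟨B, hBC, hBe, hBc, heB⟩ := exists_elab (C := N ⊓ centralizer (R : Set X)) hAe
    (fun a ha => ⟨hAN ha, mem_centralizer_iff.2 fun ρ hρ => hcomm ρ hρ a ha⟩) hAc
    (e := e) ⟨he.2, mem_centralizer_iff.2 fun ρ hρ => elab_comm hE (hR hρ) he.1⟩ (hE.2 e he.1)
  obtain ⟨h1, -⟩ := elab_sup (elab_mono hR hE) hBe (fun ρ hρ b hb => mem_centralizer_iff.1 (hBC hb).2 ρ hρ)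
  refine ⟨R ⊔ B, ?_, h1, hBc.trans (card_le_of_le (le_inf le_sup_right fun b hb => (hBC hb).1))⟩
  refine hRE.trans (sup_le_sup le_rfl (hez.trans (zpowers_le.2 heB)))

end grp

section lift

variable {Y K₀ : Type*} [Group Y] [Group K₀] (ι : K₀ →* Y)

/-- `Θ` induces `x` -/
def Lift (Θ : MulAut Y) (x : MulAut K₀) : Prop := ∀ a, Θ (ι a) = ι (x a)

variable {ι}

theorem Lift.one : Lift ι 1 1 := fun _ => rfl

theorem Lift.mul {Θ Θ' : MulAut Y} {x x' : MulAut K₀} (h : Lift ι Θ x) (h' : Lift ι Θ' x') : Lift ι (Θ * Θ') (x * x') :=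
  fun a => by rw [MulAut.mul_apply, h', h, MulAut.mul_apply]

theorem Lift.inv {Θ : MulAut Y} {x : MulAut K₀} (h : Lift ι Θ x) : Lift ι Θ⁻¹ x⁻¹ := fun a => by
  have h1 := h (x⁻¹ a)
  rw [MulAut.apply_inv_self] at h1
  rw [← h1, MulAut.inv_apply_self]

theorem Lift.pow {Θ : MulAut Y} {x : MulAut K₀} (h : Lift ι Θ x) (n : ℕ) : Lift ι (Θ ^ n) (x ^ n) := by
  induction n with
  | zero => exact Lift.one
  | succ n ih => rw [pow_succ, pow_succ]; exact ih.mul h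

variable (hc : ∀ z : Y, (∀ a, z * ι a = ι a * z) → z = 1)

include hc

/-- two lifts differing by an inner automorphism agree -/
theorem Lift.eq_one {Θ : MulAut Y} {x : MulAut K₀} {w : Y} (h : Lift ι Θ x) (h' : Lift ι (MulAut.conj w * Θ) x) : w = 1 := by
  refine hc w fun b => ?_
  obtain ⟨a, rfl⟩ := x.surjective b
  have h1 := h' a
  rw [MulAut.mul_apply, h a, MulAut.conj_apply] at h1
  exact mul_inv_eq_iff_eq_mul.1 h1

theorem Lift.conj_eq {x : MulAut K₀} {y y' : Y} (h : Lift ι (MulAut.conj y) x) (h' : Lift ι (MulAut.conj y') x) : y = y' := by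
  have h1 := Lift.eq_one hc (w := y * y'⁻¹) h' (by rw [← map_mul, inv_mul_cancel_right]; exact h)
  exact mul_inv_eq_one.1 h1

/-- a lift commuting with an inner lift -/
theorem Lift.fixed {Θ : MulAut Y} {x e : MulAut K₀} {y : Y} (h : Lift ι Θ x) (hy : Lift ι (MulAut.conj y) e)
    (hcomm : x * e = e * x) : Θ y = y := by
  have h1 : Lift ι (Θ * MulAut.conj y * Θ⁻¹) (x * e * x⁻¹) := (h.mul hy).mul h.inv
  have h2 : Θ * MulAut.conj y * Θ⁻¹ = MulAut.conj (Θ y) := by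
    ext a
    rw [MulAut.mul_apply, MulAut.mul_apply, MulAut.conj_apply, MulAut.conj_apply, map_mul, map_mul, map_inv,
      MulAut.apply_inv_self]
  rw [h2, hcomm, mul_inv_cancel_right] at h1
  exact Lift.conj_eq hc h1 hy

/-- the inner-diagonal automorphisms -/
def InnL (ι : K₀ →* Y) : Subgroup (MulAut K₀) where
  carrier := {x | ∃ y, Lift ι (MulAut.conj y) x}
  one_mem' := ⟨1, by rw [map_one]; exact Lift.one⟩
  mul_mem' := by
    rintro x x' ⟨y, hy⟩ ⟨y', hy'⟩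
    exact ⟨y * y', by rw [map_mul]; exact hy.mul hy'⟩
  inv_mem' := by
    rintro x ⟨y, hy⟩
    exact ⟨y⁻¹, by rw [map_inv]; exact hy.inv⟩

omit hc in
theorem mem_InnL {x : MulAut K₀} : x ∈ InnL ι ↔ ∃ y, Lift ι (MulAut.conj y) x := Iff.rfl

/-- the lift of an inner-diagonal automorphism is fixed by `σ` -/
theorem Lift.sigma {σ : MulAut Y} (hσ : ∀ a, σ (ι a) = ι a) {x : MulAut K₀} {y : Y} (h : Lift ι (MulAut.conj y) x) :
    σ y = y :=
  Lift.fixed hc (Θ := σ) (x := 1) (fun a => by rw [hσ]; rfl) h (by rw [one_mul, mul_one])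

omit hc in
/-- the lifts of an elementary abelian group of inner-diagonal automorphisms -/
theorem exists_Y (hι : Function.Injective ι) (hc : ∀ z : Y, (∀ a, z * ι a = ι a * z) → z = 1) {p : ℕ} {E : Subgroup (MulAut K₀)}
    (hE : IsElementaryAbelian p E) (hin : E ≤ InnL ι) :
    ∃ E₁ : Subgroup Y, IsElementaryAbelian p E₁ ∧ Nat.card E₁ = Nat.card E ∧
      ∀ y ∈ E₁, ∃ x ∈ E, Lift ι (MulAut.conj y) x := by
  classical
  have hex : ∀ x : ↥E, ∃ y, Lift ι (MulAut.conj y) x.1 := fun x => hin x.2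
  choose f hf using hex
  let F : ↥E →* Y := MonoidHom.mk' f fun x x' => by
    refine Lift.conj_eq hc (hf _) ?_
    rw [map_mul]
    exact (hf x).mul (hf x')
  have hF : ∀ x, Lift ι (MulAut.conj (F x)) x.1 := hf
  have hinj : Function.Injective F := by
    rw [injective_iff_map_eq_one]
    intro x hx
    have h1 := hF x
    rw [hx, map_one] at h1
    refine Subtype.ext (MulEquiv.ext fun a => hι ?_)
    exact (h1 a).symm
  refine ⟨F.range, ?_, ?_, ?_⟩
  · refine elab_mk ?_ ?_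
    · rintro _ ⟨a, rfl⟩ _ ⟨b, rfl⟩
      rw [← map_mul, ← map_mul, hE.1.1.1 a b]
    · rintro _ ⟨a, rfl⟩
      rw [← map_pow]
      have : a ^ p = 1 := Subtype.ext (hE.2 a a.2)
      rw [this, map_one]
  · exact (Nat.card_congr (MonoidHom.ofInjective hinj).toEquiv).symm
  · rintro _ ⟨a, rfl⟩
    exact ⟨a, a.2, hF a⟩

end lift

end Cfsg.Agent.H350.Tri
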