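import Cfsg.Agent.H350.Tri.Abs

/-!
# S2187, row TRI: the elementary abelian groups meeting `Inndiag` trivially (helper350)

`Y` a group with commuting automorphisms `γ`, `Φ`, `γ ^ 3 = 1`, `σ = Φ` or `σ = Φ ^ 3`; `R` an elementary abelian `3`-subgroup of
`Aut K₀` with `R ∩ Inndiag = 1` whose elements lift to `conj y * γ ^ i * Φ ^ j`, one of them with `3 ∤ i`.

`tri_cases` : `R` is covered by the lifts in `⟨θ, F⟩`, `θ = conj u * γ ^ i`, `F = conj w * Φ` or `conj w * Φ ^ 3`, or by the lifts in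
`⟨conj w * γ ^ i * Φ⟩`.
-/

set_option autoImplicit false
set_option linter.unusedSectionVars false
set_option maxHeartbeats 400000

namespace Cfsg.Agent.H350.Tri

open Cfsg Subgroup Cfsg.Agent.H818.Gen

variable {Y K₀ : Type*} [Group Y] [Group K₀] {ι : K₀ →* Y}

theorem Lift.unique (hι : Function.Injective ι) {Θ : MulAut Y} {x x' : MulAut K₀} (h : Lift ι Θ x) (h' : Lift ι Θ x') :
    x = x' := MulEquiv.ext fun a => hι (by rw [← h a, ← h' a])

/-- the automorphisms of `K₀` with a lift in `𝒢` -/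
def LiftsIn (ι : K₀ →* Y) (𝒢 : Subgroup (MulAut Y)) : Subgroup (MulAut K₀) where
  carrier := {x | ∃ Θ ∈ 𝒢, Lift ι Θ x}
  one_mem' := ⟨1, one_mem _, Lift.one⟩
  mul_mem' := by
    rintro x x' ⟨y, h, hy⟩ ⟨y', h', hy'⟩
    exact ⟨y * y', mul_mem h h', hy.mul hy'⟩
  inv_mem' := by
    rintro x ⟨y, h, hy⟩
    exact ⟨y⁻¹, inv_mem h, hy.inv⟩

theorem LiftsIn_mono {𝒢 𝒢' : Subgroup (MulAut Y)} (h : 𝒢 ≤ 𝒢') : LiftsIn ι 𝒢 ≤ LiftsIn ι 𝒢' := by
  rintro x ⟨Θ, h1, h2⟩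
  exact ⟨Θ, h h1, h2⟩

theorem mem_of_pow3 {X : Type*} [Group X] {H : Subgroup X} {x : X} (hx : x ^ 3 = 1) {c : ℕ} (hc : c.Coprime 3)
    (h : x ^ c ∈ H) : x ∈ H := by
  have h1 : x = (x ^ c) ^ c := by
    have h2 : c % 3 = 1 ∨ c % 3 = 2 := by
      have h3 : ¬ 3 ∣ c := fun h4 => by
        have := Nat.Coprime.eq_one_of_dvd (Nat.Coprime.symm hc) h4
        omega
      omega
    have h3 : c * c % 3 = 1 := by
      rcases h2 with h2 | h2 <;> rw [Nat.mul_mod, h2]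
    rw [← pow_mul, ← Nat.div_add_mod (c * c) 3, h3, pow_add, pow_mul, hx, one_pow, one_mul, pow_one]
  rw [h1]
  exact pow_mem h c

section

variable {γ Φ σ : MulAut Y}

theorem conj_map (Θ : MulAut Y) (y : Y) : Θ * MulAut.conj y = MulAut.conj (Θ y) * Θ := by
  ext a
  simp only [MulAut.mul_apply, MulAut.conj_apply, map_mul, map_inv]

/-- the automorphisms `conj y * γ ^ i * Φ ^ j` -/
theorem ty_mul (hcomm : Commute γ Φ) {y y' : Y} {i j i' j' : ℕ} : ∃ y'',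
    (MulAut.conj y * γ ^ i * Φ ^ j) * (MulAut.conj y' * γ ^ i' * Φ ^ j') = MulAut.conj y'' * γ ^ (i + i') * Φ ^ (j + j') := by
  refine ⟨y * (γ ^ i * Φ ^ j) y', ?_⟩
  have h1 : (γ ^ i * Φ ^ j) * MulAut.conj y' = MulAut.conj ((γ ^ i * Φ ^ j) y') * (γ ^ i * Φ ^ j) := conj_map _ _
  have h2 : Φ ^ j * γ ^ i' = γ ^ i' * Φ ^ j := ((hcomm.pow_pow i' j).eq).symm
  calc (MulAut.conj y * γ ^ i * Φ ^ j) * (MulAut.conj y' * γ ^ i' * Φ ^ j')
      = MulAut.conj y * ((γ ^ i * Φ ^ j) * MulAut.conj y') * (γ ^ i' * Φ ^ j') := by group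
    _ = MulAut.conj y * MulAut.conj ((γ ^ i * Φ ^ j) y') * (γ ^ i * (Φ ^ j * γ ^ i') * Φ ^ j') := by rw [h1]; group
    _ = _ := by rw [h2, map_mul, pow_add, pow_add]; group

variable (ι γ Φ)

/-- `x` lifts to `conj y * γ ^ i * Φ ^ j` -/
def Ty (x : MulAut K₀) (i j : ℕ) : Prop := ∃ y, Lift ι (MulAut.conj y * γ ^ i * Φ ^ j) x

variable {ι γ Φ}

theorem Ty.mul (hcomm : Commute γ Φ) {x x' : MulAut K₀} {i j i' j' : ℕ} (h : Ty ι γ Φ x i j) (h' : Ty ι γ Φ x' i' j') :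
    Ty ι γ Φ (x * x') (i + i') (j + j') := by
  obtain ⟨y, hy⟩ := h
  obtain ⟨y', hy'⟩ := h'
  obtain ⟨y'', hy''⟩ := ty_mul (y := y) (y' := y') (i := i) (j := j) (i' := i') (j' := j') hcomm
  exact ⟨y'', by rw [← hy'']; exact hy.mul hy'⟩

theorem Ty.pow (hcomm : Commute γ Φ) {x : MulAut K₀} {i j : ℕ} (h : Ty ι γ Φ x i j) (n : ℕ) :
    Ty ι γ Φ (x ^ n) (n * i) (n * j) := by
  induction n with
  | zero =>
    rw [Nat.zero_mul, Nat.zero_mul]
    exact ⟨1, by rw [map_one, pow_zero, pow_zero, pow_zero, one_mul, one_mul]; exact Lift.one⟩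
  | succ n ih =>
    rw [pow_succ, Nat.succ_mul, Nat.succ_mul]
    exact ih.mul hcomm h

variable (hγ : γ ^ 3 = 1) (hcomm : Commute γ Φ) (hΦ : Lift ι (Φ ^ 3) 1)

include hγ in
theorem gam_mod (i : ℕ) : γ ^ i = γ ^ (i % 3) := by
  conv_lhs => rw [← Nat.div_add_mod i 3, pow_add, pow_mul, hγ, one_pow, one_mul]

include hγ hΦ in
theorem Ty.mod {x : MulAut K₀} {i j i' j' : ℕ} (h : Ty ι γ Φ x i j) (hi : i % 3 = i' % 3) (hj : j % 3 = j' % 3) :
    Ty ι γ Φ x i' j' := by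
  obtain ⟨y, hy⟩ := h
  refine ⟨y, fun a => ?_⟩
  have h1 : ∀ n b, (Φ ^ (3 * n)) (ι b) = ι b := by
    intro n b
    have := (hΦ.pow n) b
    rw [one_pow, ← pow_mul] at this
    exact this
  have h2 : ∀ n b, (Φ ^ n) (ι b) = (Φ ^ (n % 3)) (ι b) := by
    intro n b
    conv_lhs => rw [← Nat.mod_add_div n 3, pow_add, MulAut.mul_apply, h1]
  have h3 := hy a
  rw [MulAut.mul_apply, gam_mod hγ i, hi, ← gam_mod hγ i', h2, hj, ← h2] at h3
  exact h3

include hγ hΦ in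
theorem Ty.inn {x : MulAut K₀} {i j : ℕ} (h : Ty ι γ Φ x i j) (hi : i % 3 = 0) (hj : j % 3 = 0) : x ∈ InnL ι := by
  obtain ⟨y, hy⟩ := h.mod hγ hΦ (i' := 0) (j' := 0) hi hj
  exact ⟨y, by rwa [pow_zero, pow_zero, mul_one, mul_one] at hy⟩

variable (hc : ∀ z : Y, (∀ a, z * ι a = ι a * z) → z = 1)

include hc in
/-- lifts of commuting automorphisms commute -/
theorem lift_comm (hcomm : Commute γ Φ) {x x' : MulAut K₀} (hxx : x * x' = x' * x) {y y' : Y} {i j i' j' : ℕ}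
    (h : Lift ι (MulAut.conj y * γ ^ i * Φ ^ j) x) (h' : Lift ι (MulAut.conj y' * γ ^ i' * Φ ^ j') x') :
    Commute (MulAut.conj y * γ ^ i * Φ ^ j) (MulAut.conj y' * γ ^ i' * Φ ^ j') := by
  obtain ⟨z, hz⟩ := ty_mul (y := y) (y' := y') (i := i) (j := j) (i' := i') (j' := j') hcomm
  obtain ⟨z', hz'⟩ := ty_mul (y := y') (y' := y) (i := i') (j := j') (i' := i) (j' := j) hcomm
  have h1 := h.mul h'
  have h2 := h'.mul h
  rw [hz] at h1
  rw [hz', ← hxx, add_comm i', add_comm j'] at h2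
  have h3 : MulAut.conj (z' * z⁻¹) * (MulAut.conj z * γ ^ (i + i') * Φ ^ (j + j')) =
      MulAut.conj z' * γ ^ (i + i') * Φ ^ (j + j') := by
    rw [map_mul, map_inv]; group
  have h4 := Lift.eq_one hc (w := z' * z⁻¹) h1 (by rw [h3]; exact h2)
  have h5 : z' = z := mul_inv_eq_one.1 h4
  show (MulAut.conj y * γ ^ i * Φ ^ j) * (MulAut.conj y' * γ ^ i' * Φ ^ j') = _
  rw [hz, hz', h5, add_comm i', add_comm j']

end

/-- the fixing property of the conclusion -/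
theorem tri_cases {γ Φ σ : MulAut Y} (hγ : γ ^ 3 = 1) (hcomm : Commute γ Φ) (hσ : Lift ι σ 1)
    (hd : Φ = σ ∨ Φ ^ 3 = σ) (hc : ∀ z : Y, (∀ a, z * ι a = ι a * z) → z = 1)
    {R : Subgroup (MulAut K₀)} (hR : IsElementaryAbelian 3 R) (hR0 : R ⊓ InnL ι = ⊥)
    (hty : ∀ ρ ∈ R, ∃ c i j : ℕ, c.Coprime 3 ∧ Ty ι γ Φ (ρ ^ c) i j)
    (hx : ∃ x ∈ R, ∃ i j : ℕ, ¬ 3 ∣ i ∧ Ty ι γ Φ x i j) :
    (∃ (u w : Y) (i : ℕ) (F : MulAut Y), ¬ 3 ∣ i ∧ (F = MulAut.conj w * Φ ∨ F = MulAut.conj w * Φ ^ 3) ∧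
      Commute (MulAut.conj u * γ ^ i) F ∧ (MulAut.conj u * γ ^ i) ^ 3 = 1 ∧ σ ∈ closure {MulAut.conj u * γ ^ i, F} ∧
      R ≤ LiftsIn ι (closure {MulAut.conj u * γ ^ i, F})) ∨
    (∃ (w : Y) (i : ℕ), ¬ 3 ∣ i ∧ σ ∈ closure {MulAut.conj w * γ ^ i * Φ} ∧
      R ≤ LiftsIn ι (closure {MulAut.conj w * γ ^ i * Φ})) := by
  have hΦ : Lift ι (Φ ^ 3) 1 := by
    rcases hd with h | h
    · rw [h]
      have := hσ.pow 3
      rwa [one_pow] at this
    · rw [h]; exact hσ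
  have hR1 : ∀ x ∈ R, x ∈ InnL ι → x = 1 := fun x h1 h2 => by
    have : x ∈ R ⊓ InnL ι := ⟨h1, h2⟩
    rwa [hR0, mem_bot] at this
  -- elements of `R` with `3`-divisible type are trivial
  have hR2 : ∀ x ∈ R, ∀ i j, Ty ι γ Φ x i j → i % 3 = 0 → j % 3 = 0 → x = 1 :=
    fun x h1 i j h2 h3 h4 => hR1 x h1 (h2.inn hγ hΦ h3 h4)
  have hcube : ∀ {y : Y} {i j : ℕ} {x : MulAut K₀}, x ∈ R → Lift ι (MulAut.conj y * γ ^ i * Φ ^ j) x →
      ∃ w, (MulAut.conj y * γ ^ i * Φ ^ j) ^ 3 = MulAut.conj w * Φ ^ (3 * j) ∧ Lift ι (MulAut.conj w * Φ ^ (3 * j)) 1 := by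
    intro y i j x hxR hL
    obtain ⟨z, hz⟩ := ty_mul (y := y) (y' := y) (i := i) (j := j) (i' := i) (j' := j) hcomm
    obtain ⟨z', hz'⟩ := ty_mul (y := z) (y' := y) (i := i + i) (j := j + j) (i' := i) (j' := j) hcomm
    have h1 : (MulAut.conj y * γ ^ i * Φ ^ j) ^ 3 = MulAut.conj z' * Φ ^ (3 * j) := by
      rw [pow_succ, pow_two, hz, hz', gam_mod hγ]
      have e1 : (i + i + i) % 3 = 0 := by omega
      have e2 : j + j + j = 3 * j := by ring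
      rw [e1, e2, pow_zero, mul_one]
    refine ⟨z', h1, ?_⟩
    have h2 := hL.pow 3
    rw [h1, hR.2 x hxR] at h2
    exact h2
  obtain ⟨x, hxR, i, j, hi, hxty⟩ := hx
  rcases hd with hd | hd
  · -- `Φ = σ`
    left
    have hΦ1 : Lift ι Φ 1 := by rw [hd]; exact hσ
    have hstrip : ∀ {x : MulAut K₀} {i j : ℕ}, Ty ι γ Φ x i j → ∃ y, Lift ι (MulAut.conj y * γ ^ i) x := by
      rintro x i j ⟨y, hy⟩
      refine ⟨y, fun a => ?_⟩
      have h1 := hy a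
      have h2 := (hΦ1.pow j) a
      rw [one_pow, MulAut.one_apply] at h2
      rwa [MulAut.mul_apply, h2] at h1
    obtain ⟨u, hu⟩ := hstrip hxty
    have hu' : Lift ι (MulAut.conj u * γ ^ i * Φ ^ 0) x := by rwa [pow_zero, mul_one]
    refine ⟨u, 1, i, Φ, hi, Or.inl (by rw [map_one, one_mul]), ?_, ?_, hd ▸ Subgroup.subset_closure (Or.inr rfl), ?_⟩
    · have h1 := lift_comm hc hcomm (x := x) (x' := 1) (by rw [one_mul, mul_one]) hu' (y' := 1) (i' := 0) (j' := 1)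
        (by rw [map_one, pow_zero, pow_one, one_mul, one_mul]; exact hΦ1)
      rwa [pow_zero, mul_one, map_one, pow_zero, pow_one, one_mul, one_mul] at h1
    · obtain ⟨w, h1, h2⟩ := hcube hxR hu'
      rw [Nat.mul_zero, pow_zero, mul_one, mul_one] at h1
      rw [Nat.mul_zero, pow_zero, mul_one] at h2
      rw [h1, Lift.eq_one hc (w := w) Lift.one (by rw [mul_one]; exact h2), map_one]
    · intro ρ hρ
      obtain ⟨c, i', j', hcc, hρty⟩ := hty ρ hρ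
      refine mem_of_pow3 (hR.2 ρ hρ) hcc ?_
      obtain ⟨y', hy'⟩ := hstrip hρty
      obtain ⟨s, hs⟩ : ∃ s, (s * i + i') % 3 = 0 := by
        have h1 : i % 3 = 1 ∨ i % 3 = 2 := by omega
        rcases h1 with h1 | h1
        · refine ⟨3 - i' % 3, ?_⟩
          rw [Nat.add_mod, Nat.mul_mod, h1]; omega
        · refine ⟨i' % 3, ?_⟩
          rw [Nat.add_mod, Nat.mul_mod, h1]; omega
      have h1 : Ty ι γ Φ (x ^ s * ρ ^ c) (s * i + i') (s * 0 + 0) :=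
        Ty.mul hcomm (Ty.pow hcomm ⟨u, hu'⟩ s) ⟨y', by rwa [pow_zero, mul_one]⟩
      have h2 := hR2 _ (mul_mem (pow_mem hxR s) (pow_mem hρ c)) _ _ h1 hs (by simp)
      have h3 : ρ ^ c = (x ^ s)⁻¹ := eq_inv_of_mul_eq_one_right h2
      rw [h3]
      refine inv_mem (pow_mem ?_ s)
      exact ⟨_, Subgroup.subset_closure (Or.inl rfl), hu⟩
  · -- `Φ ^ 3 = σ`
    by_cases hg : ∃ ρ ∈ R, ∃ i, ¬ 3 ∣ i ∧ Ty ι γ Φ ρ i 0
    · left
      obtain ⟨ρ₀, hρ₀, i, hi, u, hu⟩ := hg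
      have hu1 : Lift ι (MulAut.conj u * γ ^ i) ρ₀ := by rwa [pow_zero, mul_one] at hu
      have hθ3 : (MulAut.conj u * γ ^ i) ^ 3 = 1 := by
        obtain ⟨w, h1, h2⟩ := hcube hρ₀ hu
        rw [Nat.mul_zero, pow_zero, mul_one, mul_one] at h1
        rw [Nat.mul_zero, pow_zero, mul_one] at h2
        rw [h1, Lift.eq_one hc (w := w) Lift.one (by rw [mul_one]; exact h2), map_one]
      -- kill the graph part
      have hkill : ∀ i' : ℕ, ∃ s, (s * i + i') % 3 = 0 := by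
        intro i'
        have h1 : i % 3 = 1 ∨ i % 3 = 2 := by omega
        rcases h1 with h1 | h1
        · refine ⟨3 - i' % 3, ?_⟩
          rw [Nat.add_mod, Nat.mul_mod, h1]; omega
        · refine ⟨i' % 3, ?_⟩
          rw [Nat.add_mod, Nat.mul_mod, h1]; omega
      by_cases hf : ∃ φ ∈ R, Ty ι γ Φ φ 0 1
      · obtain ⟨φ₀, hφ₀, w, hw⟩ := hf
        have hw1 : Lift ι (MulAut.conj w * Φ) φ₀ := by rwa [pow_zero, pow_one, mul_one] at hw
        refine ⟨u, w, i, MulAut.conj w * Φ, hi, Or.inl rfl, ?_, hθ3, ?_, ?_⟩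
        · have h1 := lift_comm hc hcomm (x := ρ₀) (x' := φ₀) (elab_comm hR hρ₀ hφ₀) hu hw
          rwa [pow_zero, mul_one, pow_zero, mul_one, pow_one] at h1
        · obtain ⟨w', h1, h2⟩ := hcube hφ₀ hw
          rw [pow_zero, mul_one, pow_one, mul_one] at h1
          rw [mul_one] at h2
          rw [Lift.eq_one hc (w := w') (Θ := Φ ^ 3) hΦ h2, map_one, one_mul, hd] at h1
          have h3 : MulAut.conj w * Φ ∈ closure {MulAut.conj u * γ ^ i, MulAut.conj w * Φ} :=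
            Subgroup.subset_closure (Set.mem_insert_of_mem _ rfl)
          have h4 := pow_mem h3 3
          rw [h1] at h4
          exact h4
        · intro ρ hρ
          obtain ⟨c, i', j', hcc, hρty⟩ := hty ρ hρ
          refine mem_of_pow3 (hR.2 ρ hρ) hcc ?_
          obtain ⟨s, hs⟩ := hkill i'
          obtain ⟨t, ht⟩ : ∃ t, (t * 1 + j') % 3 = 0 := ⟨3 - j' % 3, by omega⟩
          have h1 : Ty ι γ Φ (x := φ₀ ^ t * (ρ₀ ^ s * ρ ^ c)) (t * 0 + (s * i + i')) (t * 1 + (s * 0 + j')) :=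
            Ty.mul hcomm (Ty.pow hcomm ⟨w, hw⟩ t) (Ty.mul hcomm (Ty.pow hcomm ⟨u, hu⟩ s) hρty)
          have h2 := hR2 _ (mul_mem (pow_mem hφ₀ t) (mul_mem (pow_mem hρ₀ s) (pow_mem hρ c))) _ _ h1
            (by rw [Nat.mul_zero, Nat.zero_add]; exact hs) (by rw [Nat.mul_zero, Nat.zero_add]; exact ht)
          have h3 : ρ ^ c = (φ₀ ^ t * ρ₀ ^ s)⁻¹ := eq_inv_of_mul_eq_one_right (by rw [mul_assoc]; exact h2)
          rw [h3]
          refine inv_mem (mul_mem (pow_mem ?_ t) (pow_mem ?_ s))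
          · exact ⟨_, Subgroup.subset_closure (Or.inr rfl), hw1⟩
          · exact ⟨_, Subgroup.subset_closure (Or.inl rfl), hu1⟩
      · refine ⟨u, 1, i, σ, hi, Or.inr (by rw [map_one, one_mul, hd]), ?_, hθ3, Subgroup.subset_closure (Or.inr rfl), ?_⟩
        · have h1 := lift_comm hc hcomm (x := ρ₀) (x' := 1) (by rw [one_mul, mul_one]) hu (y' := 1) (i' := 0) (j' := 3)
            (by rw [map_one, pow_zero, one_mul, one_mul]; exact hΦ)
          rwa [pow_zero, mul_one, map_one, pow_zero, one_mul, one_mul, hd] at h1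
        · intro ρ hρ
          obtain ⟨c, i', j', hcc, hρty⟩ := hty ρ hρ
          refine mem_of_pow3 (hR.2 ρ hρ) hcc ?_
          obtain ⟨s, hs⟩ := hkill i'
          have h1 : Ty ι γ Φ (ρ₀ ^ s * ρ ^ c) (s * i + i') (s * 0 + j') :=
            Ty.mul hcomm (Ty.pow hcomm ⟨u, hu⟩ s) hρty
          have hmem : ρ₀ ^ s * ρ ^ c ∈ R := mul_mem (pow_mem hρ₀ s) (pow_mem hρ c)
          have h2 : ρ₀ ^ s * ρ ^ c = 1 := by
            have h3 : j' % 3 = 0 ∨ j' % 3 = 1 ∨ j' % 3 = 2 := by omega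
            rcases h3 with h3 | h3 | h3
            · exact hR2 _ hmem _ _ h1 hs (by rw [Nat.mul_zero, Nat.zero_add]; exact h3)
            · exact absurd ⟨_, hmem, h1.mod hγ hΦ (by rw [hs]) (by rw [Nat.mul_zero, Nat.zero_add, h3])⟩ hf
            · refine absurd ⟨_, pow_mem hmem 2, (h1.pow hcomm 2).mod hγ hΦ (i' := 0) (j' := 1) ?_ ?_⟩ hf
              · rw [Nat.mul_mod, hs]
              · rw [Nat.mul_zero, Nat.zero_add, Nat.mul_mod, h3]
          have h3 : ρ ^ c = (ρ₀ ^ s)⁻¹ := eq_inv_of_mul_eq_one_right h2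
          rw [h3]
          refine inv_mem (pow_mem ?_ s)
          exact ⟨_, Subgroup.subset_closure (Or.inl rfl), hu1⟩
    · right
      -- the generator with `j = 1`
      obtain ⟨x₀, hx₀, i₀, hi₀, w, hw⟩ : ∃ x₀ ∈ R, ∃ i₀, ¬ 3 ∣ i₀ ∧ Ty ι γ Φ x₀ i₀ 1 := by
        have h3 : j % 3 = 0 ∨ j % 3 = 1 ∨ j % 3 = 2 := by omega
        rcases h3 with h3 | h3 | h3
        · exact absurd ⟨x, hxR, i, hi, hxty.mod hγ hΦ rfl (by rw [h3])⟩ hg
        · exact ⟨x, hxR, i, hi, hxty.mod hγ hΦ rfl (by rw [h3])⟩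
        · refine ⟨x ^ 2, pow_mem hxR 2, 2 * i, by omega, (hxty.pow hcomm 2).mod hγ hΦ rfl ?_⟩
          rw [Nat.mul_mod, h3]
      have hw1 : Lift ι (MulAut.conj w * γ ^ i₀ * Φ) x₀ := by rwa [pow_one] at hw
      refine ⟨w, i₀, hi₀, ?_, ?_⟩
      · obtain ⟨w', h1, h2⟩ := hcube hx₀ hw
        rw [pow_one, mul_one] at h1
        rw [mul_one] at h2
        rw [Lift.eq_one hc (w := w') (Θ := Φ ^ 3) hΦ h2, map_one, one_mul, hd] at h1
        have h3 : MulAut.conj w * γ ^ i₀ * Φ ∈ closure {MulAut.conj w * γ ^ i₀ * Φ} :=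
          Subgroup.subset_closure (Set.mem_singleton _)
        have h4 := pow_mem h3 3
        rw [h1] at h4
        exact h4
      · intro ρ hρ
        obtain ⟨c, i', j', hcc, hρty⟩ := hty ρ hρ
        refine mem_of_pow3 (hR.2 ρ hρ) hcc ?_
        obtain ⟨t, ht⟩ : ∃ t, (t * 1 + j') % 3 = 0 := ⟨3 - j' % 3, by omega⟩
        have h1 : Ty ι γ Φ (x₀ ^ t * ρ ^ c) (t * i₀ + i') (t * 1 + j') :=
          Ty.mul hcomm (Ty.pow hcomm ⟨w, hw⟩ t) hρty
        have hmem : x₀ ^ t * ρ ^ c ∈ R := mul_mem (pow_mem hx₀ t) (pow_mem hρ c)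
        have h2 : x₀ ^ t * ρ ^ c = 1 := by
          by_cases h3 : 3 ∣ t * i₀ + i'
          · exact hR2 _ hmem _ _ h1 (by omega) ht
          · exact absurd ⟨_, hmem, _, h3, h1.mod hγ hΦ rfl (by rw [ht])⟩ hg
        have h3 : ρ ^ c = (x₀ ^ t)⁻¹ := eq_inv_of_mul_eq_one_right h2
        rw [h3]
        refine inv_mem (pow_mem ?_ t)
        exact ⟨_, Subgroup.subset_closure rfl, hw1⟩

/-- the twisted case `σ = γ * Φ` -/
theorem tri_cases_tw {γ Φ σ : MulAut Y} (hγ : γ ^ 3 = 1) (hcomm : Commute γ Φ) (hσ : Lift ι σ 1)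
    (hd : γ * Φ = σ) (hc : ∀ z : Y, (∀ a, z * ι a = ι a * z) → z = 1)
    {R : Subgroup (MulAut K₀)} (hR : IsElementaryAbelian 3 R) (hR0 : R ⊓ InnL ι = ⊥)
    (hty : ∀ ρ ∈ R, ∃ c i : ℕ, c.Coprime 3 ∧ ∃ y, Lift ι (MulAut.conj y * γ ^ i) (ρ ^ c))
    (hx : ∃ x ∈ R, ∃ i : ℕ, ¬ 3 ∣ i ∧ ∃ y, Lift ι (MulAut.conj y * γ ^ i) x) :
    ∃ (u w : Y) (i : ℕ) (F : MulAut Y), ¬ 3 ∣ i ∧ (F = MulAut.conj w * Φ ∨ F = MulAut.conj w * Φ ^ 3) ∧
      Commute (MulAut.conj u * γ ^ i) F ∧ (MulAut.conj u * γ ^ i) ^ 3 = 1 ∧ σ ∈ closure {MulAut.conj u * γ ^ i, F} ∧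
      R ≤ LiftsIn ι (closure {MulAut.conj u * γ ^ i, F}) := by
  obtain ⟨x, hxR, i, hi, u, hu⟩ := hx
  have hkill : ∀ i' : ℕ, ∃ s, (s * i + i') % 3 = 0 := by
    intro i'
    have h1 : i % 3 = 1 ∨ i % 3 = 2 := by omega
    rcases h1 with h1 | h1
    · refine ⟨3 - i' % 3, ?_⟩
      rw [Nat.add_mod, Nat.mul_mod, h1]; omega
    · refine ⟨i' % 3, ?_⟩
      rw [Nat.add_mod, Nat.mul_mod, h1]; omega
  obtain ⟨θ, hθ⟩ : ∃ θ, θ = MulAut.conj u * γ ^ i := ⟨_, rfl⟩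
  rw [← hθ] at hu
  -- powers of `θ`
  have hpow : ∀ n : ℕ, ∃ y, θ ^ n = MulAut.conj y * γ ^ (n * i) := by
    intro n
    induction n with
    | zero => exact ⟨1, by rw [map_one, Nat.zero_mul, pow_zero, pow_zero, one_mul]⟩
    | succ n ih =>
      obtain ⟨y, hy⟩ := ih
      refine ⟨y * (γ ^ (n * i)) u, ?_⟩
      have h1 := conj_map (γ ^ (n * i)) u
      rw [pow_succ, hy, hθ, Nat.succ_mul, pow_add, map_mul]
      calc MulAut.conj y * γ ^ (n * i) * (MulAut.conj u * γ ^ i)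
          = MulAut.conj y * (γ ^ (n * i) * MulAut.conj u) * γ ^ i := by group
        _ = _ := by rw [h1]; group
  have hθ3 : θ ^ 3 = 1 := by
    obtain ⟨y, hy⟩ := hpow 3
    rw [gam_mod hγ, Nat.mul_mod_right, pow_zero, mul_one] at hy
    have h1 := hu.pow 3
    rw [hR.2 x hxR, hy] at h1
    rw [hy, Lift.eq_one hc (w := y) Lift.one (by rw [mul_one]; exact h1), map_one]
  have hθσ : Commute θ σ := by
    have h1 : σ * θ = MulAut.conj (σ u * u⁻¹) * (θ * σ) := by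
      have h2 := conj_map σ u
      have h3 : σ * γ ^ i = γ ^ i * σ := by
        rw [← hd]
        exact ((((Commute.refl γ).mul_left hcomm.symm).pow_right i)).eq
      rw [hθ]
      calc σ * (MulAut.conj u * γ ^ i) = (σ * MulAut.conj u) * γ ^ i := by group
        _ = MulAut.conj (σ u) * (σ * γ ^ i) := by rw [h2]; group
        _ = _ := by rw [h3, map_mul, map_inv]; group
    have h2 : Lift ι (θ * σ) x := by
      have := hu.mul hσ
      rwa [mul_one] at this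
    have h3 : Lift ι (σ * θ) x := by
      have := hσ.mul hu
      rwa [one_mul] at this
    rw [h1] at h3
    have h4 := Lift.eq_one hc h2 h3
    show θ * σ = σ * θ
    rw [h1, h4, map_one, one_mul]
  obtain ⟨s, hs⟩ := hkill 1
  obtain ⟨y, hy⟩ := hpow s
  have hF : θ ^ s * σ = MulAut.conj y * Φ := by
    rw [hy, ← hd]
    have h1 : γ ^ (s * i) * γ = 1 := by rw [← pow_succ, gam_mod hγ, hs, pow_zero]
    calc MulAut.conj y * γ ^ (s * i) * (γ * Φ) = MulAut.conj y * (γ ^ (s * i) * γ) * Φ := by group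
      _ = _ := by rw [h1, mul_one]
  have hθc : θ ∈ closure {θ, θ ^ s * σ} := Subgroup.subset_closure (Or.inl rfl)
  have hFc : θ ^ s * σ ∈ closure {θ, θ ^ s * σ} := Subgroup.subset_closure (Or.inr rfl)
  refine ⟨u, y, i, θ ^ s * σ, hi, Or.inl hF, ?_, ?_, ?_, ?_⟩
  · rw [← hθ]
    exact ((Commute.refl θ).pow_right s).mul_right hθσ
  · rw [← hθ]; exact hθ3
  · rw [← hθ]
    have h1 := mul_mem (inv_mem (pow_mem hθc s)) hFc
    rwa [inv_mul_cancel_left] at h1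
  · rw [← hθ]
    intro ρ hρ
    obtain ⟨c, i', hcc, y', hy'⟩ := hty ρ hρ
    refine mem_of_pow3 (hR.2 ρ hρ) hcc ?_
    obtain ⟨t, ht⟩ := hkill i'
    obtain ⟨z, hz⟩ := hpow t
    have h1 : Lift ι (MulAut.conj (z * (γ ^ (t * i)) y')) (x ^ t * ρ ^ c) := by
      have h2 := (hu.pow t).mul hy'
      have h3 : θ ^ t * (MulAut.conj y' * γ ^ i') = MulAut.conj (z * (γ ^ (t * i)) y') := by
        have h4 := conj_map (γ ^ (t * i)) y'
        have h5 : γ ^ (t * i) * γ ^ i' = 1 := by rw [← pow_add, gam_mod hγ, ht, pow_zero]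
        rw [hz, map_mul]
        calc MulAut.conj z * γ ^ (t * i) * (MulAut.conj y' * γ ^ i')
            = MulAut.conj z * (γ ^ (t * i) * MulAut.conj y') * γ ^ i' := by group
          _ = MulAut.conj z * MulAut.conj ((γ ^ (t * i)) y') * (γ ^ (t * i) * γ ^ i') := by rw [h4]; group
          _ = _ := by rw [h5, mul_one]
      rwa [h3] at h2
    have h2 : x ^ t * ρ ^ c ∈ R ⊓ InnL ι := ⟨mul_mem (pow_mem hxR t) (pow_mem hρ c), _, h1⟩
    rw [hR0, mem_bot] at h2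
    have h3 : ρ ^ c = (x ^ t)⁻¹ := eq_inv_of_mul_eq_one_right h2
    rw [h3]
    exact inv_mem (pow_mem (show x ∈ LiftsIn ι _ from ⟨θ, hθc, hu⟩) t)

end Cfsg.Agent.H350.Tri
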