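import Cfsg.Agent.H225.Gen.Fin

/-!
# Generation by the `r`-elements of the centralisers of the hyperplanes of a toral group (S2187, row TRI)

`gen_top_r` : the form of `H225.Gen.gen_top` with the `r`-elements only (same proof, helper225).
-/

set_option autoImplicit false
set_option linter.unusedSectionVars false
set_option linter.unusedVariables false

namespace Cfsg.Agent.H350.Tri

open CoxeterSystem Cfsg Cfsg.Lie Cfsg.Lie.ChevalleyDatum
open Cfsg.Agent.ChevalleyStructure Cfsg.Agent.ChevalleyStructure.Elts Cfsg.Agent.ChevalleyStructure.CoxeterGeom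
  Cfsg.Agent.ChevalleyStructure.CoxeterGeomTypes Cfsg.Agent.ChevalleyStructure.NPerm
  Cfsg.Agent.ChevalleyStructure.XColumns
open Cfsg.Agent.Tits.Roots Cfsg.Agent.Tits.Core Cfsg.Agent.Nodes Cfsg.Agent.Nodes.Reps Cfsg.Agent.Nodes.BNOf
  Cfsg.Agent.Nodes.RGDChev Cfsg.Agent.Nodes.Bruhat Cfsg.Agent.Nodes.NormalForm Cfsg.Agent.Nodes.StabComb
  Cfsg.Agent.Nodes.Coroot Cfsg.Agent.Nodes.SubComb
open Cfsg.Agent.KFacts.RgdField Cfsg.Agent.KFacts.RgdChevCoord
open Cfsg.Agent.BpExc Cfsg.Agent.BpExc.TorCent Cfsg.Agent.BpExc.TorChev Cfsg.Agent.BpExc.Tow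
  Cfsg.Agent.BpExc.TowChev Cfsg.Agent.BpExc.Fr Cfsg.Agent.BpExc.Pair Cfsg.Agent.BpExc.LangFr Cfsg.Agent.GpExc.Field
  Cfsg.Agent.BpExc.NInst Cfsg.Agent.BpExc.NChev Cfsg.Agent.BpExc.Asm Cfsg.Agent.BpExc.CommZ
open Cfsg.Agent.H818.StrP.UTab Cfsg.Agent.H818.StrP.UAct Cfsg.Agent.H123.ExcComb Cfsg.Agent.H696.GmnToral
open Cfsg.Agent.H225.Gen
open Cfsg.Agent.H469.Exc Cfsg.Agent.H469.Exc.SigFr Cfsg.Agent.H316.U3 Cfsg.Agent.H316.U6
open scoped commutatorElement Matrix

universe u v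

variable {D : ChevalleyDatum} {l : ℕ} {M : CoxeterMatrix (Fin l)} (h : HiList D) {hp : IsType D l M}
  {r q : ℕ} [hr : Fact r.Prime] {K₀ : Type v} [Group K₀]

include h in
/-- **Generation by the centralisers of the hyperplanes.** -/
theorem gen_top_r (m : MData hp r q K₀) [Finite K₀] [IsSimpleGroup K₀] (hq : 3 ≤ q) (hG2 : D = chevG2 → 4 ≤ q)
    {p : ℕ} (hpp : p.Prime) {E : Subgroup ↥(D.group (KK r))} [Finite ↥E] (hEp : ∀ a ∈ E, a ^ p = 1)
    (hyp : ∃ F ≤ E, (F.subgroupOf E).index = p) (hEσ : ∀ a ∈ E, m.σ a = a)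
    {z : ↥(D.group (KK r))} (hz : ∀ a ∈ E, z * a * z⁻¹ ∈ TT D (KK r))
    (hNS : ¬ p ∣ q ^ 2 + 1 ∨ ∀ w, ∃ x,
      rep M.toCoxeterSystem hp.isCartan w (m.g (rep M.toCoxeterSystem hp.isCartan w (m.g x))) ≠ -x)
    {M₀ : Subgroup K₀} (hM : ∀ F ≤ E, (F.subgroupOf E).index = p → ∀ a : K₀, (∀ x ∈ F, m.ι a * x = x * m.ι a) →
      (∃ j, a ^ r ^ j = 1) → a ∈ M₀) : M₀ = ⊤ := by
  have hk := locFin r
  have hZ := center_KK h r
  have hd := density m hq hG2
  have hD : 0 < D.nroots := ChevalleyStructure.RootVec.nroots_pos h.checked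
  have hq1 : 1 < q := by omega
  obtain ⟨F, hF, hFi, y, hy, hcomm⟩ := long_fixed h hp M.toCoxeterSystem hk m.he hZ m.frob m.fr m.top hpp hEp hyp
    hEσ hz (by rw [m.hq]; exact hNS)
  have hyi : m.σ y⁻¹ = y⁻¹ := by rw [map_inv, hy]
  -- the subgroups
  set HH : Subgroup ↥(D.group (KK r)) := M₀.map m.ι with hHH
  set H' : Subgroup ↥(D.group (KK r)) := HH.map (MulAut.conj y⁻¹).toMonoidHom with hH'
  have hmem : ∀ u, u ∈ H' ↔ y * u * y⁻¹ ∈ HH := by
    intro u
    constructor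
    · rintro ⟨v, hv, rfl⟩
      have : y * ((MulAut.conj y⁻¹).toMonoidHom v) * y⁻¹ = v := by
        show y * (y⁻¹ * v * y⁻¹⁻¹) * y⁻¹ = v
        group
      rw [this]; exact hv
    · intro hu
      refine ⟨_, hu, ?_⟩
      show y⁻¹ * (y * u * y⁻¹) * y⁻¹⁻¹ = u
      group
  have hσ' : ∀ u ∈ H', m.σ u = u := by
    intro u hu
    obtain ⟨a, -, ha⟩ := (hmem u).1 hu
    have h1 := m.fix a
    rw [ha, map_mul, map_mul, hy, hyi] at h1
    exact mul_left_cancel (mul_right_cancel h1)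
  have hA : ∀ F ≤ E, (F.subgroupOf E).index = p → ∀ u, m.σ u = u → (∀ x ∈ F, u * x = x * u) →
      (∃ j, u ^ r ^ j = 1) → u ∈ HH := by
    intro F hF hFi u hu hux hur
    obtain ⟨a, rfl⟩ := m.exists_eq hu hur
    obtain ⟨j, hj⟩ := hur
    exact ⟨a, hM F hF hFi a hux ⟨j, m.inj (by rw [map_pow, hj, map_one])⟩, rfl⟩
  have hθ : IsRoot M.toCoxeterSystem hp.isCartan (th D l) := th_root h hp M.toCoxeterSystem
  have hA1 : ∀ u, m.σ u = u → (u ∈ XX D l (KK r) (th D l) ∨ u ∈ XX D l (KK r) (-th D l)) → u ∈ H' := by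
    intro u hu hux
    rw [hmem]
    refine hA F hF hFi _ (by rw [map_mul, map_mul, hy, hyi, hu]) (hcomm u hux) ?_
    obtain ⟨j, hj⟩ : ∃ j, u ^ r ^ j = 1 := by
      rcases hux with h1 | h1
      · exact pow_of_rootD hp M.toCoxeterSystem hk r hθ h1
      · exact pow_of_rootD hp M.toCoxeterSystem hk r hθ.neg h1
    exact ⟨j, by rw [conj_pow, hj, mul_one, mul_inv_cancel]⟩
  -- the submodule
  set L : Submodule (KK r) (D.Idx → KK r) := Submodule.span (KK r)
      {v | ∃ h ∈ H', v = ((h : GL D.Idx (KK r)) : Matrix D.Idx D.Idx (KK r)) *ᵥ ev D (KK r) (D.nroots - 1)} with hLdef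
  have hLH : ∀ h ∈ H', StabU L h := by
    intro h hh v hv
    have h1 : L ≤ L.comap (((h : GL D.Idx (KK r)) : Matrix D.Idx D.Idx (KK r)).mulVecLin) := by
      refine Submodule.span_le.2 ?_
      rintro _ ⟨h', hh', rfl⟩
      refine Submodule.subset_span ⟨h * h', mul_mem hh hh', ?_⟩
      rw [Matrix.mulVecLin_apply, Matrix.mulVec_mulVec]
      rfl
    exact h1 hv
  have hLtop : ev D (KK r) (D.nroots - 1) ∈ L := Submodule.subset_span ⟨1, one_mem _, by
    rw [Subgroup.coe_one, Units.val_one, Matrix.one_mulVec]⟩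
  have hall : ∀ u : ↥(D.group (KK r)), StabU L u := by
    intro u
    have h1 := stabU_topF hp M.toCoxeterSystem hk m.he hd m.frob m.fr hpp hEp hyp hEσ hz (L := tr L y⁻¹)
      (fun F hF hFi v hv hvx hvr => by
        rw [stabU_tr, inv_inv]
        refine hLH _ ((hmem _).2 ?_)
        have e1 : y * (y⁻¹ * v * y) * y⁻¹ = v := by group
        rw [e1]
        exact hA F hF hFi v hv hvx hvr) (y * u * y⁻¹)
    rw [stabU_tr, inv_inv] at h1
    have e1 : y⁻¹ * (y * u * y⁻¹) * y = u := by group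
    rwa [e1] at h1
  -- Theorem Z
  obtain ⟨i₀, hi, hi1, hZt⟩ := H818.StrP.UThm.thmZ m h hq
  obtain ⟨h1, h2⟩ := hZt H' hσ' (fun u hu hux => hA1 u hu (Or.inl hux)) (fun u hu hux => hA1 u hu (Or.inr hux))
    (fun s hs => by
      have h3 := H549.Exc.all_of_top hp.inList (L := L) (fun g v hv => hall g v hv) hLtop ⟨s, hs⟩
      rw [ChevalleyStructure.XColumns.ev_eq_single hs]
      exact h3)
  -- the conclusion
  have hN : NQ m i₀ ≤ H'.comap m.ι := by
    refine (Subgroup.closure_le _).2 ?_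
    rintro a (ha | ha)
    · exact h1 _ (m.fix a) ha
    · exact h2 _ (m.fix a) ha
  have hn := NQ_normal m hi
  have htop : H'.comap m.ι = ⊤ := by
    rcases hn.eq_bot_or_eq_top with h3 | h3
    · exfalso
      obtain ⟨a, ha1, ha⟩ := exists_top m hD hq1
      refine ha1 (Subgroup.mem_bot.1 ?_)
      rw [← h3]
      refine Subgroup.subset_closure (Or.inl ?_)
      exact RGD.le_Sup (X := XX D l (KK r)) (S := {a | IsRoot M.toCoxeterSystem hp.isCartan a ∧ 1 ≤ a i₀})
        ⟨hθ, hi1⟩ ha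
    · exact top_le_iff.1 (h3 ▸ hN)
  have h3 : Nat.card K₀ ≤ Nat.card ↥M₀ := by
    let f : K₀ → ↥M₀ := fun a => ⟨((hmem _).1 (show m.ι a ∈ H' from by
      have : a ∈ H'.comap m.ι := by rw [htop]; exact Subgroup.mem_top a
      exact this)).choose, ((hmem _).1 (show m.ι a ∈ H' from by
      have : a ∈ H'.comap m.ι := by rw [htop]; exact Subgroup.mem_top a
      exact this)).choose_spec.1⟩
    refine Nat.card_le_card_of_injective f ?_
    intro a b hab
    have ha := ((hmem _).1 (show m.ι a ∈ H' from by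
      have : a ∈ H'.comap m.ι := by rw [htop]; exact Subgroup.mem_top a
      exact this)).choose_spec.2
    have hb := ((hmem _).1 (show m.ι b ∈ H' from by
      have : b ∈ H'.comap m.ι := by rw [htop]; exact Subgroup.mem_top b
      exact this)).choose_spec.2
    have hab' := congrArg (fun x : ↥M₀ => m.ι x.1) hab
    simp only [f] at hab'
    rw [ha, hb] at hab'
    exact m.inj (mul_left_cancel (mul_right_cancel hab'))
  exact Subgroup.eq_top_of_le_card _ h3


end Cfsg.Agent.H350.Tri
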