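import Cfsg.Agent.H350.Tri.Str
import Cfsg.Agent.H350.Tri.Top
import Cfsg.Agent.H350.Tri.Abs
import Cfsg.Agent.H696.GmnInv
import Cfsg.Agent.H225.Gen.Row
import Cfsg.Agent.H396.Comp.Comp

/-!
# S2187, row TRI: the core (helper350)

`core` : `E` elementary abelian of exponent `3`, `|E ∩ Inndiag| ≥ 9`, `E` not in `Inndiag · field` ⟹ `Gam 3 E = ⊤`.
-/

set_option autoImplicit false
set_option linter.unusedSectionVars false

namespace Cfsg.Agent.H350.Tri

open CoxeterSystem Cfsg Cfsg.Lie Cfsg.Agent.ChevalleyStructure Cfsg.Agent.ChevalleyStructure.Elts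
open Cfsg.Agent.ChevalleyStructure.CoxeterGeom Cfsg.Agent.ChevalleyStructure.CoxeterGeomTypes
  Cfsg.Agent.ChevalleyStructure.NPerm
open Cfsg.Agent.Tits.Roots Cfsg.Agent.Tits.Core Cfsg.Agent.Nodes Cfsg.Agent.Nodes.Reps Cfsg.Agent.Nodes.BNOf
  Cfsg.Agent.Nodes.Bruhat Cfsg.Agent.Nodes.RGDChev
open Cfsg.Agent.KFacts.RgdField Cfsg.Agent.KFacts.RgdChevCoord
open Cfsg.Agent.BpExc Cfsg.Agent.BpExc.TorCent Cfsg.Agent.BpExc.TorChev Cfsg.Agent.BpExc.Tow
  Cfsg.Agent.BpExc.TowChev Cfsg.Agent.BpExc.Fr Cfsg.Agent.BpExc.Pair Cfsg.Agent.BpExc.LangFr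
open Cfsg.Agent.BpExc.FamTw.Gr Cfsg.Agent.BpExc.FamUntw Cfsg.Agent.H818.StrP.UTab
open Cfsg.Agent.H469.Exc Cfsg.Agent.H818.Gen Cfsg.Agent.H316.U6 Cfsg.Agent.H316.U3

universe u v

variable {r : ℕ} [hrf : Fact r.Prime]

theorem core (P : Pieces r) (hr5 : 5 ≤ r) {q : ℕ} {K₀ : Type v} [Group K₀] [Finite K₀]
    [IsSimpleGroup K₀] (m : MData hp4 r q K₀) (hc : ∀ z, (∀ a, z * m.ι a = m.ι a * z) → z = 1)
    {E : Subgroup (MulAut K₀)} (hE : IsElementaryAbelian 3 E) (h9 : 3 ^ 2 ≤ Nat.card ↥(E ⊓ InnL m.ι))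
    {x : MulAut K₀} (hx : x ∈ E) {y : Y4 r} {i m' : ℕ} (hi : ¬ 3 ∣ i)
    (hL : Lift m.ι (MulAut.conj y * gr4 r ^ i * phi chevD4 (KK r) r m') x) : Gam 3 E = ⊤ := by
  have : Fact (Nat.Prime 3) := ⟨Nat.prime_three⟩
  have hr3 : r ≠ 3 := by omega
  have hk := locFin r
  have hhi : HiList chevD4 := by simp [HiList]
  have hZ := H225.Gen.center_KK hhi r
  obtain ⟨E₁, hE₁, hcard, hlift⟩ := exists_Y m.inj hc (elab_mono inf_le_left hE) (inf_le_right : E ⊓ InnL m.ι ≤ _)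
  have hfinE : Finite ↥E₁ := Nat.finite_of_card_ne_zero (by rw [hcard]; omega)
  have hσ : ∀ y ∈ E₁, m.σ y = y := fun y hy => by
    obtain ⟨x, -, h⟩ := hlift y hy
    exact Lift.sigma hc m.fix h
  obtain ⟨z, hz⟩ := Tor.exists_toral (r := r) hp4 Nat.prime_three hr3.symm (Or.inr ⟨rfl, Or.inr rfl⟩) hE₁
  have hE9 : 3 ^ 2 ≤ Nat.card ↥E := h9.trans (Subgroup.card_le_of_le inf_le_left)
  have hK : ∀ e ∈ E₁, e ≠ 1 → ∀ u : K₀, m.ι u * e = e * m.ι u → (∃ j, u ^ r ^ j = 1) → u ∈ Gam 3 E := by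
    intro e he he1 u hu hur
    obtain ⟨xe, hxe, hxl⟩ := hlift e he
    have he3 := hE₁.2 e he
    have hfix : (MulAut.conj y * gr4 r ^ i * phi chevD4 (KK r) r m') e = e :=
      hL.fixed hc hxl (elab_comm hE hx hxe.1)
    -- the Frobenius on `e`
    have hphi : phi chevD4 (KK r) r m' e =
        ((phi chevD4 (KK r) r m' z)⁻¹ * z) * e ^ r ^ m' * ((phi chevD4 (KK r) r m' z)⁻¹ * z)⁻¹ := by
      have h1 := H696.GmnInv.phi_tors hp4 (k := KK r) hk cs4 hZ (n := m') (hz e he)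
      rw [map_mul, map_mul, map_inv, conj_pow] at h1
      have h2 : phi chevD4 (KK r) r m' e = (phi chevD4 (KK r) r m' z)⁻¹ *
          (phi chevD4 (KK r) r m' z * phi chevD4 (KK r) r m' e * (phi chevD4 (KK r) r m' z)⁻¹) *
          phi chevD4 (KK r) r m' z := by group
      rw [h2, h1]
      group
    obtain ⟨n, hn, K, h1, h2, h3, h4⟩ := compK P hr3 m he3 he1 (hσ e he)
      ⟨y * (gr4 r ^ i) ((phi chevD4 (KK r) r m' z)⁻¹ * z), i, r ^ m', hi, by
        have h5 : y * (gr4 r ^ i) (phi chevD4 (KK r) r m' e) * y⁻¹ = e := hfix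
        rw [hphi, map_mul, map_mul, map_inv] at h5
        rw [mul_inv_rev]
        calc _ = y * ((gr4 r ^ i) ((phi chevD4 (KK r) r m' z)⁻¹ * z) * (gr4 r ^ i) (e ^ r ^ m') *
              ((gr4 r ^ i) ((phi chevD4 (KK r) r m' z)⁻¹ * z))⁻¹) * y⁻¹ := by group
          _ = _ := h5⟩
    have hmem : ∀ a : K₀, e * m.ι a = m.ι a * e ↔ xe a = a := by
      intro a
      have h5 : e * m.ι a * e⁻¹ = m.ι (xe a) := hxl a
      constructor
      · intro h6
        apply m.inj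
        rw [← h5, h6, mul_inv_cancel_right]
      · intro h6
        rw [h6] at h5
        exact mul_inv_eq_iff_eq_mul.1 h5
    refine H396.Comp.comp_le hE (by omega) hn K h1 h3 ?_ h2 ?_
    rotate_left
    · rw [h4]
      exact Subgroup.subset_closure ⟨hu.symm, hur⟩
    · -- invariance
      have h8 : ∀ φ ∈ E, (⨆ i, K i).map φ.toMonoidHom ≤ ⨆ i, K i := by
        intro φ hφ
        rw [h4, MonoidHom.map_closure]
        refine (Subgroup.closure_le _).2 ?_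
        rintro _ ⟨a, ⟨ha, j, hj⟩, rfl⟩
        refine Subgroup.subset_closure ⟨?_, j, ?_⟩
        · rw [hmem] at ha ⊢
          have h9 := elab_comm hE hxe.1 hφ
          have h10 : xe (φ a) = φ (xe a) := by
            rw [← MulAut.mul_apply, h9, MulAut.mul_apply]
          show xe (φ a) = φ a
          rw [h10, ha]
        · show (φ a) ^ r ^ j = 1
          rw [← map_pow, hj, map_one]
      intro φ hφ
      refine le_antisymm (h8 φ hφ) fun a ha => ⟨φ⁻¹ a, h8 φ⁻¹ (inv_mem hφ) ⟨a, ha, rfl⟩, ?_⟩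
      exact MulAut.apply_inv_self _ φ a
  -- generation
  have hq : 3 ≤ q := by
    rw [← m.hq]
    calc 3 ≤ r ^ 1 := by rw [pow_one]; omega
      _ ≤ r ^ m.e := Nat.pow_le_pow_right (by omega) m.he
  obtain ⟨F₀, hF₀, hF₀i⟩ := exists_hyperplane (p := 3) hE₁ (by rw [hcard]; omega)
  refine gen_top_r hhi m hq (fun h => absurd (congrArg ChevalleyDatum.nroots h) (by decide)) Nat.prime_three (E := E₁) (fun a ha => hE₁.2 a ha)
    ⟨F₀, hF₀, hF₀i⟩ hσ hz (Or.inl (H225.Gen.three_not_dvd_sq q)) (M₀ := Gam 3 E) ?_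
  intro F hF hFi a ha har
  obtain ⟨e, heF, he1⟩ : ∃ e ∈ F, e ≠ 1 := by
    by_contra hcon
    push Not at hcon
    have h5 : F = ⊥ := by rw [eq_bot_iff]; exact fun e he => Subgroup.mem_bot.2 (hcon e he)
    rw [h5, Subgroup.bot_subgroupOf, Subgroup.index_bot, hcard] at hFi
    omega
  exact hK e (hF heF) he1 a (ha e heF) har

end Cfsg.Agent.H350.Tri
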