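import Cfsg.Agent.H350.Tri.Core
import Cfsg.Agent.H350.Tri.Cases
import Cfsg.Agent.H350.Tri.Model
import Cfsg.Agent.H28.FamFour

/-!
# S2187, row TRI: enlarging `E` (helper350)

* `Nine r` : the statement TRI-9;
* `gam_of_alpha`, `gam_of_beta`, `gam_top` : `Gam 3 E = ⊤`.
-/

set_option autoImplicit false
set_option linter.unusedSectionVars false

namespace Cfsg.Agent.H350.Tri

open CoxeterSystem Cfsg Cfsg.Lie Cfsg.Agent.ChevalleyStructure Cfsg.Agent.ChevalleyStructure.Elts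
open Cfsg.Agent.ChevalleyStructure.CoxeterGeom Cfsg.Agent.ChevalleyStructure.CoxeterGeomTypes
  Cfsg.Agent.ChevalleyStructure.NPerm
open Cfsg.Agent.ChevalleyStructure.GraphSymm (symmD4a)
open Cfsg.Agent.Tits.Roots Cfsg.Agent.Tits.Core Cfsg.Agent.Nodes Cfsg.Agent.Nodes.Reps Cfsg.Agent.Nodes.BNOf
  Cfsg.Agent.Nodes.Bruhat Cfsg.Agent.Nodes.RGDChev
open Cfsg.Agent.KFacts.RgdField Cfsg.Agent.KFacts.RgdChevCoord
open Cfsg.Agent.BpExc Cfsg.Agent.BpExc.TorCent Cfsg.Agent.BpExc.TorChev Cfsg.Agent.BpExc.Tow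
  Cfsg.Agent.BpExc.TowChev Cfsg.Agent.BpExc.Fr Cfsg.Agent.BpExc.Pair Cfsg.Agent.BpExc.LangFr
open Cfsg.Agent.BpExc.FamTw.Gr Cfsg.Agent.BpExc.FamUntw Cfsg.Agent.BpExc.FamInst
open Cfsg.Agent.H469.Exc Cfsg.Agent.H469.Exc.SigFr Cfsg.Agent.H818.Gen Cfsg.Agent.H316.U6 Cfsg.Agent.H316.U3

universe u v

variable {r : ℕ} [hrf : Fact r.Prime]

/-- the statement TRI-9 -/
structure Nine (r : ℕ) [Fact r.Prime] : Prop where
  nine : ∀ {n : ℕ}, 0 < n → ∀ {θ : MulAut (Y4 r)}, (∃ u, θ = MulAut.conj u * gr4 r ∨ θ = MulAut.conj u * gr4 r ^ 2) →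
    θ ^ 3 = 1 → Commute θ (phi chevD4 (KK r) r n) →
    ∃ A : Subgroup (Y4 r), IsElementaryAbelian 3 A ∧ Nat.card ↥A = 9 ∧ ∀ y ∈ A, θ y = y ∧ phi chevD4 (KK r) r n y = y
  std : ∀ n : ℕ, ∃ A : Subgroup (Y4 r), IsElementaryAbelian 3 A ∧ Nat.card ↥A = 9 ∧
    ∀ y ∈ A, gr4 r y = y ∧ phi chevD4 (KK r) r n y = y

theorem gr4_cube : gr4 r ^ 3 = 1 := Cfsg.Agent.H28.FamFour.gr_cube_D4

theorem gr4_comm (n : ℕ) : Commute (gr4 r) (phi chevD4 (KK r) r n) :=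
  gr_mul_fld Cfsg.Agent.Nodes.RGDTwD4.hp.inList symmD4a _

theorem isFrob_gr4 (i n : ℕ) : IsFrob r n (gr4 r ^ i * phi chevD4 (KK r) r n) := by
  have h1 : IsFrob r 0 (gr4 r) := isFrob_symm symmD4a (p := r) (coe_gr (L := KK r) _ symmD4a)
  have h2 := (h1.pow i).mul (phi_isFrob (D := chevD4) (k := KK r) r n)
  rwa [Nat.mul_zero, Nat.zero_add] at h2

theorem fr_gr4 (i n : ℕ) : ∃ g : (Fin 4 → ℤ) ≃+ (Fin 4 → ℤ),
    Fr cs4 (hp4).isCartan (TT chevD4 (KK r)) (XX chevD4 4 (KK r)) (gr4 r ^ i * phi chevD4 (KK r) r n) g := by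
  have h0 : Fr cs4 (hp4).isCartan (TT chevD4 (KK r)) (XX chevD4 4 (KK r)) (gr4 r) _ :=
    fr_D4 (coe_gr (L := KK r) _ symmD4a) cs4
  induction i with
  | zero => exact ⟨_, by rw [pow_zero, one_mul]; exact phi_fr hp4 cs4 r (locFin r) n⟩
  | succ i ih =>
    obtain ⟨g, hg⟩ := ih
    exact ⟨_, by rw [pow_succ', mul_assoc]; exact h0.mul hg⟩

/-- Lang -/
theorem lang' {i n : ℕ} (hn : 0 < n) (w : Y4 r) : ∃ z : Y4 r,
    MulAut.conj w * (gr4 r ^ i * phi chevD4 (KK r) r n) =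
      MulAut.conj z * (gr4 r ^ i * phi chevD4 (KK r) r n) * (MulAut.conj z)⁻¹ := by
  obtain ⟨g, hg⟩ := fr_gr4 (r := r) i n
  obtain ⟨z, hz⟩ := lang_all hp4 cs4 hn (isFrob_gr4 i n) hg 1 w
  refine ⟨z⁻¹, ?_⟩
  rw [map_one, one_mul] at hz
  obtain ⟨τ, hτ⟩ : ∃ τ, τ = gr4 r ^ i * phi chevD4 (KK r) r n := ⟨_, rfl⟩
  rw [← hτ] at hz ⊢
  have h1 := conj_map τ z
  rw [map_inv, inv_inv, mul_assoc, h1, hz, map_mul, map_inv, mul_assoc]

section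

variable {q : ℕ} {K₀ : Type v} [Group K₀] (m : MData hp4 r q K₀)
  (hc : ∀ z, (∀ a, z * m.ι a = m.ι a * z) → z = 1)

include hc in
/-- the automorphisms of `K₀` induced by a group fixed by the lifts -/
theorem A_of {A₀ : Subgroup (Y4 r)} (hA₀ : IsElementaryAbelian 3 A₀) (h9 : Nat.card ↥A₀ = 9)
    {𝒢 : Subgroup (MulAut (Y4 r))} (hfix : ∀ Θ ∈ 𝒢, ∀ a ∈ A₀, Θ a = a) (hσ : m.σ ∈ 𝒢) {R : Subgroup (MulAut K₀)}
    (hR : R ≤ LiftsIn m.ι 𝒢) : ∃ A ≤ InnL m.ι, IsElementaryAbelian 3 A ∧ 3 ^ 2 ≤ Nat.card ↥A ∧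
      ∀ ρ ∈ R, ∀ a ∈ A, ρ * a = a * ρ := by
  obtain ⟨f, hf⟩ := exists_hom m.inj m.norm (X := A₀) (fun y hy => hfix _ hσ y hy)
  have hinj : Function.Injective f := by
    rw [injective_iff_map_eq_one]
    intro y hy
    refine Subtype.ext (hc _ fun a => ?_)
    have h1 := hf y a
    rw [hy] at h1
    exact (eq_mul_inv_iff_mul_eq.1 h1).symm
  refine ⟨f.range, ?_, ?_, ?_, ?_⟩
  · rintro _ ⟨y, rfl⟩
    exact ⟨y, fun a => (hf y a).symm⟩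
  · refine elab_mk ?_ ?_
    · rintro _ ⟨a, rfl⟩ _ ⟨b, rfl⟩
      rw [← map_mul, ← map_mul, hA₀.1.1.1 a b]
    · rintro _ ⟨a, rfl⟩
      have : a ^ 3 = 1 := Subtype.ext (hA₀.2 a a.2)
      rw [← map_pow, this, map_one]
  · rw [← Nat.card_congr (MonoidHom.ofInjective hinj).toEquiv, h9]
    norm_num
  · rintro ρ hρ _ ⟨y, rfl⟩
    obtain ⟨Θ, hΘ, hL⟩ := hR hρ
    have h1 : Lift m.ι (MulAut.conj (y : Y4 r)) (f y) := fun a => (hf y a).symm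
    refine Lift.unique m.inj (hL.mul h1) ?_
    have h2 := h1.mul hL
    rw [conj_map, hfix Θ hΘ y y.2]
    exact h2

/-- the fixed points of two automorphisms -/
theorem fix_closure {S : Set (MulAut (Y4 r))} {A₀ : Subgroup (Y4 r)} (h : ∀ Θ ∈ S, ∀ a ∈ A₀, Θ a = a) :
    ∀ Θ ∈ Subgroup.closure S, ∀ a ∈ A₀, Θ a = a := by
  intro Θ hΘ
  induction hΘ using Subgroup.closure_induction with
  | mem x hx => exact h x hx
  | one => exact fun a _ => rfl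
  | mul x y _ _ h1 h2 => exact fun a ha => by rw [MulAut.mul_apply, h2 a ha, h1 a ha]
  | inv x _ h1 =>
    intro a ha
    conv_lhs => rw [← h1 a ha]
    exact MulAut.inv_apply_self _ x a

include hc in
/-- case `α` -/
theorem A_alpha (N : Nine r) {n : ℕ} (hn : 0 < n) {R : Subgroup (MulAut K₀)} {u w : Y4 r} {i : ℕ} {F : MulAut (Y4 r)}
    (hi : ¬ 3 ∣ i)
    (hF : F = MulAut.conj w * phi chevD4 (KK r) r n ∨ F = MulAut.conj w * phi chevD4 (KK r) r n ^ 3)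
    (hcomm : Commute (MulAut.conj u * gr4 r ^ i) F) (h3 : (MulAut.conj u * gr4 r ^ i) ^ 3 = 1)
    (hσ : m.σ ∈ Subgroup.closure {MulAut.conj u * gr4 r ^ i, F})
    (hR : R ≤ LiftsIn m.ι (Subgroup.closure {MulAut.conj u * gr4 r ^ i, F})) :
    ∃ A ≤ InnL m.ι, IsElementaryAbelian 3 A ∧ 3 ^ 2 ≤ Nat.card ↥A ∧ ∀ ρ ∈ R, ∀ a ∈ A, ρ * a = a * ρ := by
  obtain ⟨n', hn', hF⟩ : ∃ n', 0 < n' ∧ F = MulAut.conj w * phi chevD4 (KK r) r n' := by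
    rcases hF with h | h
    · exact ⟨n, hn, h⟩
    · exact ⟨n * 3, by omega, by rw [h, phi_pow]⟩
  obtain ⟨z, hz⟩ := lang' (r := r) (i := 0) hn' w
  rw [pow_zero, one_mul] at hz
  rw [hz] at hF
  set θ : MulAut (Y4 r) := MulAut.conj u * gr4 r ^ i with hθ
  obtain ⟨θ', hθ'⟩ : ∃ θ' : MulAut (Y4 r), θ' = (MulAut.conj z)⁻¹ * θ * MulAut.conj z := ⟨_, rfl⟩
  have h1 : θ' ^ 3 = 1 := by
    have h2 : θ' = (MulAut.conj z)⁻¹ * θ * ((MulAut.conj z)⁻¹)⁻¹ := by rw [hθ', inv_inv]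
    rw [h2, conj_pow, h3]
    group
  have h2 : Commute θ' (phi chevD4 (KK r) r n') := by
    have h4 : phi chevD4 (KK r) r n' = (MulAut.conj z)⁻¹ * F * MulAut.conj z := by rw [hF]; group
    rw [h4, hθ']
    have h5 : θ * F = F * θ := hcomm
    show _ * _ = _ * _
    calc (MulAut.conj z)⁻¹ * θ * MulAut.conj z * ((MulAut.conj z)⁻¹ * F * MulAut.conj z)
        = (MulAut.conj z)⁻¹ * (θ * F) * MulAut.conj z := by group
      _ = (MulAut.conj z)⁻¹ * (F * θ) * MulAut.conj z := by rw [h5]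
      _ = _ := by group
  have hmod : gr4 r ^ i = gr4 r ∨ gr4 r ^ i = gr4 r ^ 2 := by
    have h4 : i % 3 = 1 ∨ i % 3 = 2 := by omega
    rw [gam_mod gr4_cube i]
    rcases h4 with h4 | h4 <;> rw [h4]
    · left; rw [pow_one]
    · right; rfl
  have h4 : ∃ u', θ' = MulAut.conj u' * gr4 r ^ i := by
    refine ⟨z⁻¹ * u * (gr4 r ^ i) z, ?_⟩
    have h5 := conj_map (gr4 r ^ i) z
    rw [hθ', hθ, map_mul, map_mul, map_inv]
    calc (MulAut.conj z)⁻¹ * (MulAut.conj u * gr4 r ^ i) * MulAut.conj z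
        = (MulAut.conj z)⁻¹ * MulAut.conj u * (gr4 r ^ i * MulAut.conj z) := by group
      _ = _ := by rw [h5]; group
  obtain ⟨A₁, hA₁, hcard, hfix⟩ := N.nine hn' (θ := θ') (by
    obtain ⟨u', hu'⟩ := h4
    refine ⟨u', ?_⟩
    rcases hmod with h5 | h5
    · left; rw [hu', h5]
    · right; rw [hu', h5]) h1 h2
  obtain ⟨A₀, hA₀⟩ : ∃ A₀ : Subgroup (Y4 r), A₀ = A₁.map (MulAut.conj z).toMonoidHom := ⟨_, rfl⟩
  refine A_of m hc (A₀ := A₀) (hA₀ ▸ elab_map _ hA₁) ?_ (𝒢 := Subgroup.closure {θ, F}) (fix_closure ?_) hσ hR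
  · rw [hA₀, ← hcard]
    exact (Nat.card_congr (A₁.equivMapOfInjective _ (MulAut.conj z).injective).toEquiv).symm
  · rw [hA₀]
    rintro Θ hΘ _ ⟨a, ha, rfl⟩
    rw [Set.mem_insert_iff, Set.mem_singleton_iff] at hΘ
    rcases hΘ with hΘ | hΘ <;> rw [hΘ]
    · have h5 : θ = MulAut.conj z * θ' * (MulAut.conj z)⁻¹ := by rw [hθ']; group
      show θ (MulAut.conj z a) = MulAut.conj z a
      rw [h5, MulAut.mul_apply, MulAut.mul_apply, MulAut.inv_apply_self, (hfix a ha).1]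
    · show F (MulAut.conj z a) = MulAut.conj z a
      rw [hF, MulAut.mul_apply, MulAut.mul_apply, MulAut.inv_apply_self, (hfix a ha).2]

include hc in
/-- case `β` -/
theorem A_beta (N : Nine r) {n : ℕ} (hn : 0 < n) {R : Subgroup (MulAut K₀)} {w : Y4 r} {i : ℕ}
    (hσ : m.σ ∈ Subgroup.closure {MulAut.conj w * gr4 r ^ i * phi chevD4 (KK r) r n})
    (hR : R ≤ LiftsIn m.ι (Subgroup.closure {MulAut.conj w * gr4 r ^ i * phi chevD4 (KK r) r n})) :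
    ∃ A ≤ InnL m.ι, IsElementaryAbelian 3 A ∧ 3 ^ 2 ≤ Nat.card ↥A ∧ ∀ ρ ∈ R, ∀ a ∈ A, ρ * a = a * ρ := by
  obtain ⟨z, hz⟩ := lang' (r := r) (i := i) hn w
  rw [mul_assoc, hz] at hσ hR
  obtain ⟨A₁, hA₁, hcard, hfix⟩ := N.std n
  obtain ⟨A₀, hA₀⟩ : ∃ A₀ : Subgroup (Y4 r), A₀ = A₁.map (MulAut.conj z).toMonoidHom := ⟨_, rfl⟩
  refine A_of m hc (A₀ := A₀) (hA₀ ▸ elab_map _ hA₁) ?_ (fix_closure ?_) hσ hR
  · rw [hA₀, ← hcard]
    exact (Nat.card_congr (A₁.equivMapOfInjective _ (MulAut.conj z).injective).toEquiv).symm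
  · rw [hA₀]
    rintro Θ hΘ _ ⟨a, ha, rfl⟩
    rw [Set.mem_singleton_iff] at hΘ
    subst hΘ
    show (MulAut.conj z * (gr4 r ^ i * phi chevD4 (KK r) r n) * (MulAut.conj z)⁻¹) (MulAut.conj z a) = MulAut.conj z a
    rw [MulAut.mul_apply, MulAut.mul_apply, MulAut.inv_apply_self, MulAut.mul_apply, (hfix a ha).2]
    congr 1
    have h1 : ∀ j : ℕ, (gr4 r ^ j) a = a := by
      intro j
      induction j with
      | zero => rfl
      | succ j ih => rw [pow_succ, MulAut.mul_apply, (hfix a ha).1, ih]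
    exact h1 i

end

/-- **`Gam 3 E = ⊤`, `σ = Φ` or `σ = Φ ^ 3`, `Φ` standard.** -/
theorem gam_top (P : Pieces r) (N : Nine r) (hr5 : 5 ≤ r) {q : ℕ} {K₀ : Type v} [Group K₀] [Finite K₀]
    [IsSimpleGroup K₀] (m : MData hp4 r q K₀) (hc : ∀ z, (∀ a, z * m.ι a = m.ι a * z) → z = 1) {n : ℕ} (hn : 0 < n)
    (hd : phi chevD4 (KK r) r n = m.σ ∨ phi chevD4 (KK r) r n ^ 3 = m.σ)
    {E : Subgroup (MulAut K₀)} (hE : IsElementaryAbelian 3 E) (hE9 : 3 ≤ Nat.card ↥E)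
    (hty : ∀ ρ ∈ E, ∃ c i j : ℕ, c.Coprime 3 ∧ Ty m.ι (gr4 r) (phi chevD4 (KK r) r n) (ρ ^ c) i j)
    (hx : ∃ x ∈ E, ∃ i j : ℕ, ¬ 3 ∣ i ∧ Ty m.ι (gr4 r) (phi chevD4 (KK r) r n) x i j) : Gam 3 E = ⊤ := by
  have : Fact (Nat.Prime 3) := ⟨Nat.prime_three⟩
  have hσ : Lift m.ι m.σ 1 := fun a => m.fix a
  have hΦ : Lift m.ι (phi chevD4 (KK r) r n ^ 3) 1 := by
    rcases hd with h | h
    · rw [h]
      have := hσ.pow 3
      rwa [one_pow] at this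
    · rw [h]; exact hσ
  obtain ⟨x, hxE, i, j, hi, hxty⟩ := hx
  obtain ⟨E', hEE', hE', h9⟩ := enlarge (X := MulAut K₀) (N := InnL m.ι) hE (fun R hR hR0 hRE => by
    have hRab := elab_mono hR hE
    have h0 : IsElementaryAbelian 3 (E ⊓ InnL m.ι) := elab_mono inf_le_left hE
    obtain ⟨-, hs⟩ := elab_sup hRab h0 (fun a ha b hb => elab_comm hE (hR ha) hb.1)
    obtain ⟨ρ, hρ, e, he, hρe⟩ := hs x (hRE hxE)
    -- `ρ` has the type of `x`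
    have hρty : Ty m.ι (gr4 r) (phi chevD4 (KK r) r n) ρ i j := by
      obtain ⟨y, hy⟩ : e⁻¹ ∈ InnL m.ι := inv_mem he.2
      have h1 : Ty m.ι (gr4 r) (phi chevD4 (KK r) r n) e⁻¹ 0 0 := ⟨y, by rwa [pow_zero, pow_zero, mul_one, mul_one]⟩
      have h2 := Ty.mul (gr4_comm n) hxty h1
      rwa [← hρe, mul_inv_cancel_right, Nat.add_zero, Nat.add_zero] at h2
    rcases tri_cases gr4_cube (gr4_comm n) hσ hd hc hRab hR0 (fun ρ hρ => hty ρ (hR hρ)) ⟨ρ, hρ, i, j, hi, hρty⟩ with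
      ⟨u, w, i', F, h1, h2, h3, h4, h5, h6⟩ | ⟨w, i', h1, h2, h3⟩
    · exact A_alpha m hc N hn h1 h2 h3 h4 h5 h6
    · exact A_beta m hc N hn h2 h3)
  have hE'9 : 3 ^ 2 ≤ Nat.card ↥E' := h9.trans (Subgroup.card_le_of_le inf_le_left)
  have htop : Gam 3 E' = ⊤ := by
    obtain ⟨y, hy⟩ := hxty
    have h1 : phi chevD4 (KK r) r n ^ j = phi chevD4 (KK r) r (n * j) := phi_pow (k := KK r) r n j
    rw [h1] at hy
    exact core P hr5 m hc hE' h9 (hEE' hxE) hi hy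
  rw [eq_top_iff, ← htop]
  exact Gam_mono hEE' hE' hE9

/-- **`Gam 3 E = ⊤`, `σ = γ Φ`.** -/
theorem gam_top_tw (P : Pieces r) (N : Nine r) (hr5 : 5 ≤ r) {q : ℕ} {K₀ : Type v} [Group K₀] [Finite K₀]
    [IsSimpleGroup K₀] (m : MData hp4 r q K₀) (hc : ∀ z, (∀ a, z * m.ι a = m.ι a * z) → z = 1) {n : ℕ} (hn : 0 < n)
    (hd : gr4 r * phi chevD4 (KK r) r n = m.σ)
    {E : Subgroup (MulAut K₀)} (hE : IsElementaryAbelian 3 E) (hE9 : 3 ≤ Nat.card ↥E)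
    (hty : ∀ ρ ∈ E, ∃ c i : ℕ, c.Coprime 3 ∧ ∃ y, Lift m.ι (MulAut.conj y * gr4 r ^ i) (ρ ^ c))
    (hx : ∃ x ∈ E, ∃ i : ℕ, ¬ 3 ∣ i ∧ ∃ y, Lift m.ι (MulAut.conj y * gr4 r ^ i) x) : Gam 3 E = ⊤ := by
  have : Fact (Nat.Prime 3) := ⟨Nat.prime_three⟩
  have hσ : Lift m.ι m.σ 1 := fun a => m.fix a
  obtain ⟨x, hxE, i, hi, y, hy⟩ := hx
  obtain ⟨E', hEE', hE', h9⟩ := enlarge (X := MulAut K₀) (N := InnL m.ι) hE (fun R hR hR0 hRE => by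
    have hRab := elab_mono hR hE
    have h0 : IsElementaryAbelian 3 (E ⊓ InnL m.ι) := elab_mono inf_le_left hE
    obtain ⟨-, hs⟩ := elab_sup hRab h0 (fun a ha b hb => elab_comm hE (hR ha) hb.1)
    obtain ⟨ρ, hρ, e, he, hρe⟩ := hs x (hRE hxE)
    have hρty : ∃ y, Lift m.ι (MulAut.conj y * gr4 r ^ i) ρ := by
      obtain ⟨y', hy'⟩ : e⁻¹ ∈ InnL m.ι := inv_mem he.2
      have h2 := hy.mul hy'
      rw [← hρe, mul_inv_cancel_right, mul_assoc, conj_map, ← mul_assoc, ← map_mul] at h2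
      exact ⟨_, h2⟩
    obtain ⟨u, w, i', F, h1, h2, h3, h4, h5, h6⟩ := tri_cases_tw gr4_cube (gr4_comm n) hσ hd hc hRab hR0
      (fun ρ hρ => hty ρ (hR hρ)) ⟨ρ, hρ, i, hi, hρty⟩
    exact A_alpha m hc N hn h1 h2 h3 h4 h5 h6)
  have htop : Gam 3 E' = ⊤ := by
    refine core P hr5 m hc hE' h9 (hEE' hxE) hi (y := y) (m' := 0) ?_
    have h1 : phi chevD4 (KK r) r 0 = 1 := by
      have := phi_pow (k := KK r) (D := chevD4) r n 0
      rw [pow_zero, Nat.mul_zero] at this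
      exact this.symm
    rwa [h1, mul_one]
  rw [eq_top_iff, ← htop]
  exact Gam_mono hEE' hE' hE9

end Cfsg.Agent.H350.Tri
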