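import Cfsg.Agent.H350.Tri.Fin
import Cfsg.Agent.S1071

/-!
# S2187, row TRI: `³D₄(q)`, `p = 3` (helper350)

* `lift3` : the outer automorphisms of order `3` (as `H12.BalTri.lift3`, with the small import closure of `H28.FamFour`);
* `gen_td4` : `Gen 3 (³D₄(q))`.
-/

set_option autoImplicit false
set_option linter.unusedSectionVars false

namespace Cfsg.Agent.H350.Tri

open CoxeterSystem Cfsg Cfsg.Lie Cfsg.Agent.ChevalleyStructure Cfsg.Agent.ChevalleyStructure.Elts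
open Cfsg.Agent.ChevalleyStructure.GraphSymm (symmD4a)
open Cfsg.Agent.CpAut.RgdTwD4 (hD4 st)
open Cfsg.Agent.CpAut.RgdUntw (fld)
open Cfsg.Agent.BpExc.FamTw.Gr Cfsg.Agent.BpExc.FamField Cfsg.Agent.H28.FamFour
open Cfsg.Agent.BpExc.FamUntw (phi phi_coe phi_pow)
open Cfsg.Agent.BpExc.TowChev (LocFin)
open Cfsg.Agent.KFacts.TwDFour.Out
open Cfsg.Agent.H469.Exc (KK)
open Cfsg.Agent.H818.Gen Cfsg.Agent.H316.U6

section lift

variable {r : ℕ} [Fact r.Prime] {K : Type} [Field K] [Fintype K] [CharP K r] {q n : ℕ} (hn0 : 0 < n) (hn : q = r ^ n)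
  (hK : Fintype.card K = q ^ 3) (f : K →+* KK r)

/-- **The fixed points of `gr * Frob` are the image of `³D₄(q)`.** -/
theorem fix_range (hn0 : 0 < n) (hn : q = r ^ n) (hK : Fintype.card K = q ^ 3) (f : K →+* KK r)
    {y : Y4 r} (hy : gr4 r (phi chevD4 (KK r) r n y) = y) : y ∈ (em q f).range := by
  have hrp : r.Prime := Fact.out
  have hq : IsPrimePow q := (isPrimePow_nat_iff _).2 ⟨r, n, hrp, hn0, hn.symm⟩
  have h1 : H720.TwFr.sig4 (KK r) r n y = y := by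
    rw [H720.TwFr.sig4, MulAut.mul_apply]
    exact hy
  obtain ⟨a, ha⟩ := H720.TwFr.desc4 f r (H720.TwFr.tw4_le hq hK) (Cfsg.Agent.H469.Exc.locFin r) hn0 hn hK h1
  exact ⟨a, ha⟩

theorem frb_f' (hn : q = r ^ n) {φ : K →+* K} (hφ : ∀ x, φ x = x ^ q) (a : K) : frb (KK r) r n (f a) = f (φ a) := by
  rw [frb_apply, hφ, map_pow, hn]

include hn0 hn hK in
/-- **Lifting.** -/
theorem lift3 {x : MulAut ↥(twistedD4 K q)} (hx : orderOf x = 3) (hni : ∀ g, x ≠ MulAut.conj g) :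
    ∃ (i : ℕ) (y : Y4 r), i.Coprime 3 ∧
      ∀ g, em q f ((x ^ i) g) = y * phi chevD4 (KK r) r n (em q f g) * y⁻¹ := by
  have hr : r.Prime := Fact.out
  have hq : IsPrimePow q := (isPrimePow_nat_iff _).2 ⟨r, n, hr, hn0, hn.symm⟩
  obtain ⟨φ, hφ⟩ := D4Fixed.exists_frob hq hK
  obtain ⟨cs', -⟩ : ∃ cs : CoxeterSystem CoxeterMatrix.G₂ CoxeterMatrix.G₂.Group, cs = cs :=
    ⟨CoxeterMatrix.G₂.toCoxeterSystem, rfl⟩
  have hroot : ∀ a : K, ∃ b : KK r, b ^ 2 = f a := fun a => IsAlgClosed.exists_pow_nat_eq (f a) two_pos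
  have hΦf : ∀ a, frb (KK r) r n (f a) = f (φ a) := frb_f' f hn hφ
  have hxp : x ^ 3 = 1 := by rw [← hx, pow_orderOf_eq_one]
  have hlift : ∀ x : MulAut ↥(twistedD4 K q), ∃ (a : ↥(twistedD4 K q)) (τ : K ≃+* K) (y : Y4 r),
      DTau hφ hK (MulAut.conj a * x) τ ∧ gr4 r (phi chevD4 (KK r) r n y) = y ∧
      ∀ g, em q f (x g) = y * em q f (st q τ g) * y⁻¹ :=
    fun x => exists_lift hφ hK cs' r f hq.one_lt hroot hΦf x
  obtain ⟨a, τ, y, S, hy, hxy⟩ := hlift x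
  have hτp := tau_pow_eq_one hφ hK cs' r S hxp
  have hτ1 : τ ≠ 1 := by
    rintro rfl
    obtain ⟨b, rfl⟩ := fix_range hn0 hn hK f hy
    refine hni b ?_
    apply MulEquiv.ext
    intro g
    apply em_injective f
    rw [hxy, st_one, MulAut.conj_apply, map_mul, map_mul, map_inv]
  obtain ⟨i, e, hi, he0, hcard, hfr⟩ := exists_field r Nat.prime_three hτp hτ1
  have hne : n = e := by
    rw [Nat.card_eq_fintype_card, hK, hn, ← pow_mul] at hcard
    exact Nat.eq_of_mul_eq_mul_right (by norm_num) (Nat.pow_right_injective hr.two_le hcard)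
  subst hne
  obtain ⟨a', τ', y', S', hy', hxy'⟩ := hlift (x ^ i)
  obtain ⟨b, hb⟩ := dtau_pow' hφ hK S i
  have hττ : τ' = τ ^ i := dtau_unique hφ hK cs' r S' hb
  subst hττ
  refine ⟨i, y', hi, fun g => ?_⟩
  have h1 : phi chevD4 (KK r) r n (em q f g) = em q f (st q (τ ^ i) g) :=
    fld_em f (τ := τ ^ i) (fun b => by rw [frb_apply, hfr, map_pow]) g
  rw [hxy', h1]

end lift

variable {r : ℕ} [hrf : Fact r.Prime]

/-- **`³D₄(q)`, `p = 3`.** -/
theorem gen_td4 (P : Pieces r) (N : Nine r) (hr5 : 5 ≤ r) {K : Type} [Field K] [Fintype K] [CharP K r] {q : ℕ}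
    (hq : IsPrimePow q) (hK : Fintype.card K = q ^ 3) : Gen 3 ↥(twistedD4 K q) := by
  have h3 : Fact (Nat.Prime 3) := ⟨Nat.prime_three⟩
  obtain ⟨n, f, m, hn0, hn, hσ, hι, hg⟩ := mdata_td4 (r := r) hq hK
  have hσ' : m.σ = gr4 r * phi chevD4 (KK r) r n := hσ
  have hem : ∀ a, m.ι a = em q f a := fun a => Subtype.ext (hι a)
  obtain ⟨φ, hφ⟩ := D4Fixed.exists_frob hq hK
  have hc : ∀ z, (∀ a, z * m.ι a = m.ι a * z) → z = 1 := by
    intro z hz
    refine eq_one_of_comm hφ hK f fun g => ?_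
    rw [← hem]
    exact hz g
  have hs : IsSimpleGroup ↥(twistedD4 K q) := (Cfsg.Agent.S1071.result hq hK).1
  have hq3 : 3 ≤ q := by
    rw [hn]
    calc 3 ≤ r ^ 1 := by rw [pow_one]; omega
      _ ≤ r ^ n := Nat.pow_le_pow_right (by omega) hn0
  intro E hE hE9
  by_cases hin : E ≤ InnL m.ι
  · refine top_of_inner m.inj m.norm hc (H225.Gen.genIn_D4 (p := 3) Nat.prime_three (by omega) m hg le_rfl hq3) hE hE9 ?_
    intro e he _
    obtain ⟨y, hy⟩ := hin he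
    exact ⟨y, Lift.sigma hc m.fix hy, fun a => (hy a).symm⟩
  · rw [SetLike.not_le_iff_exists] at hin
    obtain ⟨x, hxE, hx⟩ := hin
    -- the lifts
    have hlift : ∀ ρ ∈ E, ρ ∉ InnL m.ι → ∃ c : ℕ, c.Coprime 3 ∧ ∃ y, Lift m.ι (MulAut.conj y * gr4 r ^ 2) (ρ ^ c) := by
      intro ρ hρ hρ1
      have h1 : ρ ≠ 1 := by rintro rfl; exact hρ1 (one_mem _)
      have h3 : orderOf ρ = 3 := orderOf_eq_prime (hE.2 ρ hρ) h1
      obtain ⟨i, y, hi, h⟩ := lift3 hn0 hn hK f h3 (fun g hg => hρ1 ⟨m.ι g, fun a => by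
        rw [hg, MulAut.conj_apply, MulAut.conj_apply, map_mul, map_mul, map_inv]⟩)
      refine ⟨i, hi, y, fun a => ?_⟩
      have h4 : phi chevD4 (KK r) r n (m.ι a) = (gr4 r ^ 2) (m.ι a) := by
        have h5 : gr4 r (phi chevD4 (KK r) r n (m.ι a)) = m.ι a := by
          rw [← MulAut.mul_apply, ← hσ']
          exact m.fix a
        have h6 : (gr4 r ^ 2) (gr4 r (phi chevD4 (KK r) r n (m.ι a))) = (gr4 r ^ 2) (m.ι a) := by rw [h5]
        rw [← h6, ← MulAut.mul_apply, ← pow_succ, gr4_cube]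
        rfl
      rw [MulAut.mul_apply, ← h4, hem, hem, MulAut.conj_apply]
      exact (h a).symm
    refine gam_top_tw P N hr5 m hc hn0 hσ.symm hE (by omega) ?_ ?_
    · intro ρ hρ
      by_cases h1 : ρ ∈ InnL m.ι
      · obtain ⟨y, hy⟩ := h1
        exact ⟨1, 0, by decide, y, by rwa [pow_zero, mul_one, pow_one]⟩
      · obtain ⟨c, hc3, y, hy⟩ := hlift ρ hρ h1
        exact ⟨c, 2, hc3, y, hy⟩
    · obtain ⟨c, hc3, y, hy⟩ := hlift x hxE hx
      exact ⟨x ^ c, pow_mem hxE c, 2, by norm_num, y, hy⟩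

end Cfsg.Agent.H350.Tri
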