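import Cfsg.Agent.H350.Tri.Defs
import Cfsg.Agent.H316.U3
import Cfsg.Agent.H316.U6Norm
import Cfsg.Agent.H818.Gen.Tor
import Cfsg.Agent.SignalizersComponents.PCompQuot

/-!
# S2187, row TRI: the components of the centraliser of an element of order `3` (helper350)

* `compK_of_compY` : transport of `CompY` along `a ↦ z⁻¹ ι a z`;
* `compK` : `CompK m.ι e` from the pieces TRI-5 .. TRI-8.
-/

set_option autoImplicit false
set_option linter.unusedSectionVars false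

namespace Cfsg.Agent.H350.Tri

open CoxeterSystem Cfsg Cfsg.Lie Cfsg.Agent.ChevalleyStructure Cfsg.Agent.ChevalleyStructure.Elts
open Cfsg.Agent.ChevalleyStructure.CoxeterGeom Cfsg.Agent.ChevalleyStructure.CoxeterGeomTypes
  Cfsg.Agent.ChevalleyStructure.NPerm
open Cfsg.Agent.Tits.Roots Cfsg.Agent.Tits.Core Cfsg.Agent.Nodes Cfsg.Agent.Nodes.Reps Cfsg.Agent.Nodes.BNOf
  Cfsg.Agent.Nodes.Bruhat Cfsg.Agent.Nodes.RGDChev
open Cfsg.Agent.KFacts.RgdField Cfsg.Agent.KFacts.RgdChevCoord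
open Cfsg.Agent.BpExc Cfsg.Agent.BpExc.TorCent Cfsg.Agent.BpExc.TorChev Cfsg.Agent.BpExc.Tow
  Cfsg.Agent.BpExc.TowChev Cfsg.Agent.BpExc.Fr Cfsg.Agent.BpExc.Pair Cfsg.Agent.BpExc.LangFr
open Cfsg.Agent.H469.Exc Cfsg.Agent.H818.Gen Cfsg.Agent.H316.U6 Cfsg.Agent.H316.U3

universe u v

variable {r : ℕ} [hrf : Fact r.Prime]

theorem compK_of_compY {K₀ : Type v} [Group K₀] {ι : K₀ →* Y4 r} (hι : Function.Injective ι)
    {τ : MulAut (Y4 r)} {S : Set (Fin 4 → ℤ)} {e z : Y4 r} (h : CompY τ S)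
    (hS : ∀ u : Y4 r, (u ∈ RGD.Sup (XX chevD4 4 (KK r)) S ∧ τ u = u ∧ ∃ j, u ^ r ^ j = 1) ↔
      ∃ a : K₀, (e * ι a = ι a * e ∧ ∃ j, a ^ r ^ j = 1) ∧ z⁻¹ * ι a * z = u) : CompK ι e := by
  obtain ⟨n, hn, K, h1, h2, h3, h4⟩ := h
  let j : K₀ →* Y4 r := (MulAut.conj z⁻¹).toMonoidHom.comp ι
  have hj : Function.Injective j := (MulAut.conj z⁻¹).injective.comp hι
  have hja : ∀ a, j a = z⁻¹ * ι a * z := fun a => by
    show z⁻¹ * ι a * z⁻¹⁻¹ = _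
    rw [inv_inv]
  have e1 : {u : Y4 r | u ∈ RGD.Sup (XX chevD4 4 (KK r)) S ∧ τ u = u ∧ ∃ j, u ^ r ^ j = 1} =
      j '' {u : K₀ | e * ι u = ι u * e ∧ ∃ j, u ^ r ^ j = 1} := by
    ext u
    rw [Set.mem_ofPred_eq, hS u]
    constructor
    · rintro ⟨a, ha, rfl⟩
      exact ⟨a, ha, hja a⟩
    · rintro ⟨a, ha, rfl⟩
      exact ⟨a, ha, (hja a).symm⟩
  rw [e1, ← MonoidHom.map_closure] at h4
  have hle : ∀ i, K i ≤ j.range := fun i =>
    (le_iSup K i).trans (h4 ▸ Subgroup.map_le_range j _)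
  have hmap : ∀ i, ((K i).comap j).map j = K i := fun i => Subgroup.map_comap_eq_self (hle i)
  have heq : ∀ i, Nonempty (↥((K i).comap j) ≃* ↥(K i)) := fun i =>
    ⟨(((K i).comap j).equivMapOfInjective j hj).trans (MulEquiv.subgroupCongr (hmap i))⟩
  refine ⟨n, hn, fun i => (K i).comap j, fun i => ?_, fun i => ?_, ?_, ?_⟩
  · exact SignalizersComponents.PCompQuot.quasisimple_congr (heq i).some.symm (h1 i)
  · exact (h2 i).congr (heq i).some.symm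
  · intro i i' hii a ha b hb
    apply hj
    rw [map_mul, map_mul]
    exact h3 i i' hii _ ha _ hb
  · apply Subgroup.map_injective hj
    rw [Subgroup.map_iSup, ← h4]
    exact iSup_congr hmap

theorem hp4 : IsType chevD4 4 coxeterD4 := Cfsg.Agent.Nodes.RGDTwD4.hp

/-- the Coxeter system of type `D₄` -/
noncomputable abbrev cs4 : CoxeterSystem coxeterD4 (CoxeterMatrix.Group coxeterD4) := coxeterD4.toCoxeterSystem

/-- the hypotheses TRI-5 .. TRI-8 -/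
structure Pieces (r : ℕ) [Fact r.Prime] : Prop where
  comp : ∀ (S : Set (Fin 4 → ℤ)), S = A2std ∨ S = A1std → ∀ {e : ℕ}, 0 < e → ∀ {τ : MulAut (Y4 r)}, IsFrob r e τ →
    ∀ {g : (Fin 4 → ℤ) ≃+ (Fin 4 → ℤ)},
    Fr cs4 (hp4).isCartan (TT chevD4 (KK r)) (XX chevD4 4 (KK r)) τ g →
    (∀ a ∈ S, g a ∈ S) → (∀ a ∈ S, 0 ≤ a → 0 ≤ g a) → CompY τ S
  exc : ∀ {t : Y4 r}, t ∈ TT chevD4 (KK r) → t ^ 3 = 1 → t ≠ 1 →
    (∃ (z : Y4 r) (i : ℕ) (n : ℕ), ¬ 3 ∣ i ∧ z * ((gr4 r) ^ i) (t ^ n) * z⁻¹ = t) →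
    ∃ n : Y4 r, n * t * n⁻¹ ∈ TT chevD4 (KK r) ∧ (Roots (n * t * n⁻¹) = A2std ∨ Roots (n * t * n⁻¹) = A1std)
  rmm : ∀ {t u : Y4 r}, t ∈ TT chevD4 (KK r) → t ^ 3 = 1 → u * t = t * u → (∃ j, u ^ r ^ j = 1) → u ∈ MMt t

/-- **The components of the centraliser.** -/
theorem compK (P : Pieces r) (hr3 : r ≠ 3) {q : ℕ} {K₀ : Type v} [Group K₀] (m : MData hp4 r q K₀)
    {e : Y4 r} (he3 : e ^ 3 = 1) (he1 : e ≠ 1) (hσe : m.σ e = e)
    (hfus : ∃ (z : Y4 r) (i : ℕ) (n : ℕ), ¬ 3 ∣ i ∧ z * ((gr4 r) ^ i) (e ^ n) * z⁻¹ = e) : CompK m.ι e := by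
  have hk := locFin r
  have : Finite (CoxeterMatrix.Group coxeterD4) := finite_W hp4 cs4
  have H := tow (k := KK r) hp4 cs4 hk r
  have hTL := TL_eq (k := KK r) hp4 hk
  have hXL := XL_eq (k := KK r) hp4 hk
  have C := coordsL (k := KK r) hp4 cs4 hk r
  have hA := chAddL (k := KK r) hp4 cs4 hk r
  have hG := GG_eq_top (k := KK r) hp4 cs4 hk
  -- the torus
  obtain ⟨z₀, hz₀⟩ : ∃ z₀ : Y4 r, z₀ * e * z₀⁻¹ ∈ TT chevD4 (KK r) := by
    have hfin : Finite ↥(Subgroup.zpowers e) := by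
      have : IsOfFinOrder e := isOfFinOrder_iff_pow_eq_one.2 ⟨3, by norm_num, he3⟩
      exact this.finite_zpowers
    have hE : IsElementaryAbelian 3 (Subgroup.zpowers e) := by
      refine ⟨⟨⟨fun a b => ?_⟩⟩, fun a ha => ?_⟩
      · obtain ⟨a, ha⟩ := a
        obtain ⟨b, hb⟩ := b
        obtain ⟨i, rfl⟩ := Subgroup.mem_zpowers_iff.1 ha
        obtain ⟨j, rfl⟩ := Subgroup.mem_zpowers_iff.1 hb
        exact Subtype.ext ((Commute.refl e).zpow_zpow i j)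
      · obtain ⟨i, rfl⟩ := Subgroup.mem_zpowers_iff.1 ha
        rw [← zpow_natCast, zpow_comm, zpow_natCast, he3, one_zpow]
    obtain ⟨z, hz⟩ := Tor.exists_toral (r := r) hp4 Nat.prime_three hr3.symm (Or.inr ⟨rfl, Or.inr rfl⟩) hE
    exact ⟨z, hz e (Subgroup.mem_zpowers e)⟩
  obtain ⟨n₁, hn₁, hRoots⟩ := P.exc hz₀ (by rw [conj_pow, he3, mul_one, mul_inv_cancel])
    (fun h => he1 (by
      have h1 : z₀ * e * z₀⁻¹ = 1 := h
      rwa [conj_eq_one_iff] at h1)) (by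
      obtain ⟨z, i, n, hi, hz⟩ := hfus
      refine ⟨z₀ * z * ((gr4 r ^ i) z₀)⁻¹, i, n, hi, ?_⟩
      rw [conj_pow, map_mul, map_mul, map_inv]
      calc z₀ * z * ((gr4 r ^ i) z₀)⁻¹ * ((gr4 r ^ i) z₀ * (gr4 r ^ i) (e ^ n) * ((gr4 r ^ i) z₀)⁻¹) *
            (z₀ * z * ((gr4 r ^ i) z₀)⁻¹)⁻¹ = z₀ * (z * (gr4 r ^ i) (e ^ n) * z⁻¹) * z₀⁻¹ := by group
        _ = _ := by rw [hz])
  set t : Y4 r := n₁ * (z₀ * e * z₀⁻¹) * n₁⁻¹ with ht
  have ht' : t ∈ TL (Tj hp4 (k := KK r)) := by rw [hTL]; exact hn₁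
  have C' : Coords cs4 (hp4).isCartan (TL (Tj hp4 (k := KK r))) (nc hp4 (KK r)) (XL (Xj hp4 (k := KK r)))
      (xc hp4) (ch hp4) := by
    rw [hTL, hXL]; exact C
  have hA' : ChAdd cs4 (hp4).isCartan (TL (Tj hp4 (k := KK r))) (ch (K := KK r) hp4) := by rw [hTL]; exact hA
  have Fσ' : Fr cs4 (hp4).isCartan (TL (Tj hp4 (k := KK r))) (XL (Xj hp4 (k := KK r))) m.σ m.g := by
    rw [hTL, hXL]; exact m.fr
  obtain ⟨z', k', g', h1, h2, h3, h4, h5⟩ := pair_reduction H C' hA' hG Fσ' hσe (z := (n₁ * z₀)⁻¹) (t := t)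
    (by rw [ht]; group) ht' (fun k' g' F' htt m' hm => by
      have h1 := fun a => F'.mem_Sx C' ht' htt a
      rw [hTL, hXL] at F'
      rw [hXL] at hm ⊢
      exact lang_fr hp4 cs4 m.he (m.frob.conj_mul k') F' (S := Sx cs4 (hp4).isCartan (ch hp4) t) (fun a ha => ha.1)
        (fun a ha => (h1 a).2 ha) hm)
  have hgS : ∀ a, g' a ∈ Sx cs4 (hp4).isCartan (ch hp4) t ↔ a ∈ Sx cs4 (hp4).isCartan (ch hp4) t := fun a =>
    h3.mem_Sx C' ht' h4 a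
  rw [hTL, hXL] at h3
  have hcomp : CompY (MulAut.conj k' * m.σ) (Roots t) :=
    P.comp (Roots t) hRoots m.he (m.frob.conj_mul k') h3 (fun a ha => (hgS a).2 ha) (fun a ha h0 => h5 a ha h0)
  have ht3 : t ^ 3 = 1 := by rw [ht, conj_pow, conj_pow, he3]; group
  refine compK_of_compY m.inj (z := z') hcomp fun u => ?_
  have hzz : z' * t * z'⁻¹ = e := by rw [← h1]; group
  constructor
  · rintro ⟨hu, hτu, j, hj⟩
    have hσ : m.σ (z' * u * z'⁻¹) = z' * u * z'⁻¹ := by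
      have h6 : k' * m.σ u * k'⁻¹ = u := hτu
      rw [map_mul, map_mul, map_inv]
      have h7 : m.σ z' = z' * k' := by rw [← h2]; group
      rw [h7]
      calc z' * k' * m.σ u * (z' * k')⁻¹ = z' * (k' * m.σ u * k'⁻¹) * z'⁻¹ := by group
        _ = _ := by rw [h6]
    have hj' : (z' * u * z'⁻¹) ^ r ^ j = 1 := by rw [conj_pow, hj]; group
    obtain ⟨a, ha⟩ := m.exists_eq hσ ⟨j, hj'⟩
    refine ⟨a, ⟨?_, j, ?_⟩, ?_⟩
    · rw [ha]
      have h8 : u * t = t * u := by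
        have h9 : u ∈ MM cs4 (hp4).isCartan (XX chevD4 4 (KK r)) (ch hp4) t := hu
        have h10 := MM_le_centralizer C hn₁ h9
        exact Subgroup.mem_centralizer_singleton_iff.1 h10
      rw [← hzz]
      calc z' * t * z'⁻¹ * (z' * u * z'⁻¹) = z' * (t * u) * z'⁻¹ := by group
        _ = z' * (u * t) * z'⁻¹ := by rw [h8]
        _ = _ := by group
    · apply m.inj
      rw [map_pow, ha, hj', map_one]
    · rw [ha]; group
  · rintro ⟨a, ⟨hea, j, hj⟩, rfl⟩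
    have hj' : (z'⁻¹ * m.ι a * z') ^ r ^ j = 1 := by
      have h6 : z'⁻¹ * m.ι a * z' = z'⁻¹ * m.ι a * z'⁻¹⁻¹ := by rw [inv_inv]
      rw [h6, conj_pow, ← map_pow, hj, map_one]; group
    refine ⟨P.rmm hn₁ ht3 ?_ ⟨j, hj'⟩, ?_, j, hj'⟩
    · rw [← h1]
      calc z'⁻¹ * m.ι a * z' * (z'⁻¹ * e * z') = z'⁻¹ * (m.ι a * e) * z' := by group
        _ = z'⁻¹ * (e * m.ι a) * z' := by rw [hea]
        _ = _ := by group
    · show k' * m.σ (z'⁻¹ * m.ι a * z') * k'⁻¹ = _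
      rw [map_mul, map_mul, map_inv, m.fix]
      have h7 : m.σ z' = z' * k' := by rw [← h2]; group
      rw [h7]
      group

end Cfsg.Agent.H350.Tri
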